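import Cfsg.Agent.S2332
import Cfsg.Agent.Chars.Basic.ClassSum
import Cfsg.Agent.Classical.Linear.Generation

/-!
A nontrivial representation of `SL_n(q)` has degree at least `(q^n - q)/(q - 1)`.
-/

set_option autoImplicit false
set_option linter.unusedSectionVars false

namespace CfsgLib.OrthPlusDeg

open Cfsg Matrix CfsgLib.Chars

variable {F : Type*} [Field F] [Fintype F] [DecidableEq F] {n : ℕ}

/-- `SL_n` has no nontrivial homomorphism to a commutative group. -/
theorem sl_hom_eq_one (hn : 3 ≤ n) {A : Type*} [CommGroup A]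
    (l : Matrix.SpecialLinearGroup (Fin n) F →* A) (g : Matrix.SpecialLinearGroup (Fin n) F) : l g = 1 := by
  refine CfsgLib.Classical.Linear.sl_induction (P := fun x => l x = 1) (map_one l) (fun i j hij a => ?_)
    (fun A B hA hB => by rw [map_mul, hA, hB, one_mul]) g
  obtain ⟨k, hki, hkj⟩ := CfsgLib.Classical.Linear.exists_third (ι := Fin n) (by simpa using hn) i j
  rw [← mul_one a, ← CfsgLib.Classical.Linear.transvection_commutator hki.symm hkj hij a 1,
    map_mul, map_mul, map_mul, map_inv, map_inv]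
  rw [mul_comm (l _) (l _), mul_assoc, mul_assoc]
  simp

/-- The degree bound for a representation with a nontrivial element. -/
theorem sl_degree_bound (hn : 4 ≤ n) (hq : 4 ≤ Fintype.card F) {D : ℕ}
    (φ : Matrix.SpecialLinearGroup (Fin n) F →* Matrix (Fin D) (Fin D) ℂ)
    (x : Matrix.SpecialLinearGroup (Fin n) F) (hx : (φ x).trace ≠ D) :
    (Fintype.card F ^ n - Fintype.card F) / (Fintype.card F - 1) ≤ D := by
  classical
  let ρ : Representation ℂ (Matrix.SpecialLinearGroup (Fin n) F) (Fin D → ℂ) :=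
    ((Matrix.toLinAlgEquiv' : Matrix (Fin D) (Fin D) ℂ ≃ₐ[ℂ] _).toAlgHom.toMonoidHom).comp φ
  have hchar : ∀ g, ρ.character g = (φ g).trace := fun g => by
    change LinearMap.trace ℂ _ (Matrix.toLin' (φ g)) = _
    exact Matrix.trace_toLin'_eq _
  obtain ⟨s, hs⟩ := exists_multiset_irr (G := Matrix.SpecialLinearGroup (Fin n) F)
    (χ := ρ.character) ⟨D, ρ, rfl⟩
  choose deg π hπ hπc using fun χ : IrrCharacter (Matrix.SpecialLinearGroup (Fin n) F) => χ.2
  have hdeg : ∀ χ : IrrCharacter (Matrix.SpecialLinearGroup (Fin n) F),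
      (χ : Matrix.SpecialLinearGroup (Fin n) F → ℂ) 1 = deg χ := fun χ => by
    rw [← hπc χ, Representation.char_one, Module.finrank_fin_fun]
  have hsum : (D : ℂ) = ((s.map deg).sum : ℕ) := by
    have h1 := congrFun hs 1
    rw [hchar, map_one, Matrix.trace_one, Fintype.card_fin, Pi.multiset_sum_apply, Multiset.map_map] at h1
    rw [h1, Nat.cast_multiset_sum, Multiset.map_map]
    exact congrArg Multiset.sum (Multiset.map_congr rfl fun χ _ => hdeg χ)
  have hD : D = (s.map deg).sum := by exact_mod_cast hsum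
  by_contra hlt
  refine hx ?_
  have h1 := congrFun hs x
  rw [hchar, Pi.multiset_sum_apply, Multiset.map_map] at h1
  rw [h1, hsum, Nat.cast_multiset_sum, Multiset.map_map]
  refine congrArg Multiset.sum (Multiset.map_congr rfl fun χ hχ => ?_)
  change (χ : Matrix.SpecialLinearGroup (Fin n) F → ℂ) x = (deg χ : ℂ)
  have hle : deg χ ≤ D := hD ▸ Multiset.le_sum_of_mem (Multiset.mem_map_of_mem deg hχ)
  rcases Nat.lt_or_ge (deg χ) 2 with h2 | h2
  · have hne : deg χ ≠ 0 := by
      intro h0
      have := CfsgLib.Chars.map_one_ne_zero χ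
      rw [hdeg, h0] at this
      simp at this
    have h1' : deg χ = 1 := by omega
    obtain ⟨l, hl⟩ := exists_monoidHom_of_map_one_eq_one (G := Matrix.SpecialLinearGroup (Fin n) F)
      (χ := (χ : Matrix.SpecialLinearGroup (Fin n) F → ℂ)) ⟨_, _, hπc χ⟩ (by rw [hdeg, h1', Nat.cast_one])
    rw [hl, sl_hom_eq_one (by omega) l, h1']
    simp
  · exfalso
    have := (Cfsg.Agent.S2332.result (F := F) n (by omega)
      ⟨fun h => by simp at h; omega, fun h => by simp at h; omega, fun h => by simp at h; omega,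
        fun h => by simp at h; omega⟩).1 (deg χ) (π χ) (hπ χ) h2
    exact hlt (this.trans hle)

end CfsgLib.OrthPlusDeg
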