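import Cfsg.Agent.OrthPlusDeg.Weights2
import Cfsg.Agent.OrthPlusDeg.SlBound

/-!
The value of a small character of `Omega^+` on root elements, and the lower bound one below the
true one.
-/

set_option autoImplicit false
set_option linter.unusedSectionVars false

noncomputable section

namespace CfsgLib.OrthPlusDeg

open Matrix
open scoped MatrixGroups

variable {F : Type*} [Field F] [Fintype F] [DecidableEq F] {n k : ℕ}

/-- The degree hypothesis: below the bound. -/
def SmallDeg (F : Type*) [Fintype F] (n k : ℕ) : Prop :=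
  (k + 1) * (Fintype.card F ^ 2 - 1) ≤
    (Fintype.card F ^ n - 1) * (Fintype.card F ^ (n - 1) + Fintype.card F)

theorem card_wedge_entry {a b : Fin n} (hab : a ≠ b) {c : F} (hc : c ≠ 0) :
    ((wedgeSet F n).filter fun W => W a b = c).card =
      Fintype.card F ^ (n - 2) * Fintype.card F ^ (n - 2) := by
  classical
  set A : Fin n → Finset F := fun i => if i = a then {0} else if i = b then {c} else Finset.univ with hA
  have hR : ∀ r ∈ Fintype.piFinset A, r ≠ 0 ∧ r a = 0 := by
    intro r hr
    have h1 := Fintype.mem_piFinset.1 hr a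
    have h2 := Fintype.mem_piFinset.1 hr b
    simp [hA, hab.symm] at h1 h2
    exact ⟨fun h0 => hc (by rw [← h2, h0]; rfl), h1⟩
  have hcard : (Fintype.piFinset A).card = Fintype.card F ^ (n - 2) := by
    rw [Fintype.card_piFinset, ← Finset.mul_prod_erase _ _ (Finset.mem_univ a),
      ← Finset.mul_prod_erase _ _ (Finset.mem_erase.2 ⟨hab.symm, Finset.mem_univ b⟩)]
    rw [Finset.prod_congr rfl (g := fun _ => Fintype.card F) (fun i hi => ?_), Finset.prod_const,
      Finset.card_erase_of_mem (Finset.mem_erase.2 ⟨hab.symm, Finset.mem_univ b⟩),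
      Finset.card_erase_of_mem (Finset.mem_univ a), Finset.card_univ, Fintype.card_fin]
    · simp [hA, hab.symm, show n - 1 - 1 = n - 2 by omega]
    · simp only [Finset.mem_erase, Finset.mem_univ, and_true] at hi
      simp [hA, hi.1, hi.2]
  have h := card_wedge_row a _ hR
  rw [hcard] at h
  rw [← h]
  congr 1
  refine Finset.filter_congr fun W hW => ?_
  rw [Fintype.mem_piFinset]
  refine ⟨fun hWc i => ?_, fun hall => ?_⟩
  · by_cases hi : i = a
    · subst hi; simp [hA, (mem_wedgeSet.1 hW).isAlt.1]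
    by_cases hi' : i = b
    · subst hi'; simp [hA, hi, hWc]
    · simp [hA, hi, hi']
  · simpa [hA, hab.symm] using hall b

theorem sum_psi_wedge (hn : 2 ≤ n) {ψ : AddChar F ℂ} (hψ : ψ 1 ≠ 1) {a b : Fin n} (hab : a ≠ b) :
    ∑ W ∈ wedgeSet F n, ψ (W a b) =
      ((wedgeSet F n).card : ℂ) - (Fintype.card F : ℂ) ^ (2 * n - 3) := by
  classical
  have hψ0 : ψ ≠ 0 := fun h => hψ (by rw [h]; rfl)
  have hsum : ∑ c : F, ψ c = 0 := AddChar.sum_eq_zero_iff_ne_zero.2 hψ0
  have h1 : ∑ W ∈ wedgeSet F n, (ψ (W a b) - 1) =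
      ∑ c : F, (((wedgeSet F n).filter fun W => W a b = c).card : ℂ) * (ψ c - 1) := by
    rw [← Finset.sum_fiberwise (wedgeSet F n) (fun W => W a b)]
    refine Finset.sum_congr rfl fun c _ => ?_
    rw [Finset.sum_congr rfl (g := fun _ => ψ c - 1) (fun W hW => by rw [(Finset.mem_filter.1 hW).2]),
      Finset.sum_const, nsmul_eq_mul]
  have h2 : ∑ c : F, (((wedgeSet F n).filter fun W => W a b = c).card : ℂ) * (ψ c - 1) =
      ((Fintype.card F : ℂ) ^ (n - 2) * (Fintype.card F : ℂ) ^ (n - 2)) * ∑ c : F, (ψ c - 1) := by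
    rw [Finset.mul_sum]
    refine Finset.sum_congr rfl fun c _ => ?_
    by_cases hc : c = 0
    · simp [hc]
    · rw [card_wedge_entry hab hc]; push_cast; ring
  rw [Finset.sum_sub_distrib, hsum, Finset.sum_const, Finset.card_univ, nsmul_eq_mul, mul_one, zero_sub] at h2
  rw [Finset.sum_sub_distrib, Finset.sum_const, nsmul_eq_mul, mul_one, h2] at h1
  rw [show 2 * n - 3 = (n - 2) + (n - 2) + 1 by omega, pow_succ, pow_add]
  linear_combination h1

variable {hq : 4 ≤ Fintype.card F}

theorem trace_of_weights {ψ : AddChar F ℂ} (R : OmPlus n F →* Matrix (Fin k) (Fin k) ℂ) (hn : 4 ≤ n)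
    (hψ : ψ 1 ≠ 1) (hR : ∃ g, R g ≠ 1) (hk : SmallDeg F n k) (f : (Fin n × Fin n → F) → ℂ) :
    ∑ w, f w * weightMult (radRep hq R) ψ w =
      f 0 * weightMult (radRep hq R) ψ 0 + ∑ W ∈ wedgeSet F n, f (flat2 W) := by
  classical
  rw [← Finset.add_sum_erase _ _ (Finset.mem_univ (0 : Fin n × Fin n → F))]
  congr 1
  have hstr := weight_structure (hq := hq) R hn hψ hR hk
  have himg : (wedgeSet F n).image flat2 ⊆ (Finset.univ : Finset (Fin n × Fin n → F)).erase 0 := by
    intro w hw
    obtain ⟨W, hW, rfl⟩ := Finset.mem_image.1 hw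
    exact Finset.mem_erase.2 ⟨fun h => (mem_wedgeSet.1 hW).1 (flat2_injective h), Finset.mem_univ _⟩
  rw [← Finset.sum_subset himg (fun w hw hw' => by
    rw [(hstr w (Finset.ne_of_mem_erase hw)).2 (fun h => hw' (Finset.mem_image.2
      ⟨sq2 w, mem_wedgeSet.2 h, rfl⟩)), Nat.cast_zero, mul_zero]),
    Finset.sum_image (fun _ _ _ _ h => flat2_injective h)]
  refine Finset.sum_congr rfl fun W hW => ?_
  rw [(hstr (flat2 W) fun h => (mem_wedgeSet.1 hW).1 (flat2_injective h)).1 (mem_wedgeSet.1 hW),
    Nat.cast_one, mul_one]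

theorem degree_eq_add {ψ : AddChar F ℂ} (R : OmPlus n F →* Matrix (Fin k) (Fin k) ℂ) (hn : 4 ≤ n)
    (hψ : ψ 1 ≠ 1) (hR : ∃ g, R g ≠ 1) (hk : SmallDeg F n k) :
    k = weightMult (radRep hq R) ψ 0 + (wedgeSet F n).card := by
  have h := trace_of_weights (hq := hq) R hn hψ hR hk (fun _ => 1)
  simp only [one_mul, Finset.sum_const, nsmul_eq_mul, mul_one] at h
  rw [← Nat.cast_sum, sum_weightMult (radRep_zero R) (radRep_add R) hψ] at h
  exact_mod_cast h

/-- The value at the standard root element. -/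
theorem trace_root_standard (R : OmPlus n F →* Matrix (Fin k) (Fin k) ℂ) (hn : 4 ≤ n)
    (hq : 4 ≤ Fintype.card F) (hR : ∃ g, R g ≠ 1) (hk : SmallDeg F n k) {a b : Fin n} (hab : a ≠ b) :
    (R (siegelOm hq (Pi.single (a, b) 1))).trace = (k : ℂ) - (Fintype.card F : ℂ) ^ (2 * n - 3) := by
  obtain ⟨ψ, hψ⟩ : ∃ ψ : AddChar F ℂ, ψ 1 ≠ 1 :=
    AddChar.exists_apply_ne_zero.2 (one_ne_zero : (1 : F) ≠ 0)
  have h := trace_apply (R := radRep hq R) (ψ := ψ) (radRep_zero R) (radRep_add R) hψ (Pi.single (a, b) 1)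
  rw [trace_of_weights R hn hψ hR hk (fun w => ψ (Pi.single (a, b) 1 ⬝ᵥ w))] at h
  have hk' : (k : ℂ) = (weightMult (radRep hq R) ψ 0 : ℂ) + ((wedgeSet F n).card : ℂ) := by
    exact_mod_cast degree_eq_add (hq := hq) R hn hψ hR hk
  change (radRep hq R (Pi.single (a, b) 1)).trace = _
  simp only [single_dotProduct, one_mul, dotProduct_zero, AddChar.map_zero_eq_one] at h
  rw [h, hk', show ∑ W ∈ wedgeSet F n, ψ (flat2 W (a, b)) = _ from sum_psi_wedge (by omega) hψ hab]
  ring

/-- The value at every root element. -/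
theorem trace_root (R : OmPlus n F →* Matrix (Fin k) (Fin k) ℂ) (hn : 4 ≤ n)
    (hq : 4 ≤ Fintype.card F) (hR : ∃ g, R g ≠ 1) (hk : SmallDeg F n k)
    {p : (Fin n ⊕ Fin n → F) × (Fin n ⊕ Fin n → F)} (hp : IsPair p) :
    (R (rootOm hn p)).trace = (k : ℂ) - (Fintype.card F : ℂ) ^ (2 * n - 3) := by
  set a : Fin n := ⟨0, by omega⟩
  set b : Fin n := ⟨1, by omega⟩
  have hab : a ≠ b := by simp [a, b]
  have hp₀ := isPair_single (F := F) (a := Sum.inl a) (b := Sum.inl b) (by simp [hab]) (by simp)
  obtain ⟨g, hg⟩ := exists_mapPair hp₀ hp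
  let φ : OmPlus n F ≃* OmPlus n F := MulAut.conjNormal g
  let R' : OmPlus n F →* Matrix (Fin k) (Fin k) ℂ := R.comp φ.toMonoidHom
  have hR' : ∃ x, R' x ≠ 1 := by
    obtain ⟨x, hx⟩ := hR
    exact ⟨φ.symm x, by simpa [R'] using hx⟩
  have h := trace_root_standard R' hn hq hR' hk hab
  rw [← rootOm_inl hn hq hab] at h
  have e : φ (rootOm hn ((Pi.single (Sum.inl a) 1 : Fin n ⊕ Fin n → F), Pi.single (Sum.inl b) 1)) =
      rootOm hn p := Subtype.ext (by rw [MulAut.conjNormal_apply, conj_rootOm hn g hp₀, hg])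
  rw [← e]
  exact h

theorem card_row_moved {a c : Fin n} (hac : a ≠ c) :
    ((wedgeSet F n).filter fun W => ∃ j, j ≠ c ∧ W a j ≠ 0).card =
      (Fintype.card F ^ (n - 1) - Fintype.card F) * Fintype.card F ^ (n - 2) := by
  classical
  set R : Finset (Fin n → F) := Finset.univ.filter fun r => r a = 0 ∧ ∃ j, j ≠ c ∧ r j ≠ 0 with hR
  have hR' : ∀ r ∈ R, r ≠ 0 ∧ r a = 0 := fun r hr => by
    obtain ⟨h1, j, -, hj⟩ := (Finset.mem_filter.1 hr).2
    exact ⟨fun h => hj (by rw [h]; rfl), h1⟩
  have hcard : R.card = Fintype.card F ^ (n - 1) - Fintype.card F := by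
    set A : Fin n → Finset F := fun i => if i = a then {0} else Finset.univ with hA
    set B : Fin n → Finset F := fun i => if i = c then Finset.univ else {0} with hB
    have hRAB : R = Fintype.piFinset A \ Fintype.piFinset B := by
      ext r
      simp only [hR, Finset.mem_filter, Finset.mem_univ, true_and, Finset.mem_sdiff, Fintype.mem_piFinset]
      constructor
      · rintro ⟨h1, j, hj, hj'⟩
        refine ⟨fun i => ?_, fun h => hj' ?_⟩
        · by_cases hi : i = a
          · subst hi; simp [hA, h1]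
          · simp [hA, hi]
        · simpa [hB, hj] using h j
      · rintro ⟨h1, h2⟩
        have h1a : r a = 0 := by simpa [hA] using h1 a
        refine ⟨h1a, ?_⟩
        by_contra hc
        push Not at hc
        exact h2 fun i => by
          by_cases hi : i = c
          · simp [hB, hi]
          · simp [hB, hi, hc i hi]
    have hsub : Fintype.piFinset B ⊆ Fintype.piFinset A := by
      refine Fintype.piFinset_subset _ _ fun i => ?_
      by_cases hi : i = a
      · subst hi; simp [hA, hB, hac]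
      · simp [hA, hi]
    rw [hRAB, Finset.card_sdiff_of_subset hsub, Fintype.card_piFinset, Fintype.card_piFinset,
      ← Finset.mul_prod_erase _ _ (Finset.mem_univ a), ← Finset.mul_prod_erase _ _ (Finset.mem_univ c),
      Finset.prod_congr rfl (g := fun _ => Fintype.card F) (fun i hi => by simp [hA, Finset.ne_of_mem_erase hi]),
      Finset.prod_congr rfl (s₁ := (Finset.univ : Finset (Fin n)).erase c) (g := fun _ => 1)
        (fun i hi => by simp [hB, Finset.ne_of_mem_erase hi]),
      Finset.prod_const, Finset.prod_const_one, Finset.card_erase_of_mem (Finset.mem_univ a), Finset.card_univ,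
      Fintype.card_fin]
    simp [hA, hB]
  have h := card_wedge_row a R hR'
  rw [hcard] at h
  rw [← h]
  congr 1
  refine Finset.filter_congr fun W hW => ?_
  simp [hR, (mem_wedgeSet.1 hW).isAlt.1 a]

theorem conj_transvection_fixed {W : Matrix (Fin n) (Fin n) F} (hW : IsAlt W) {a c : Fin n} (t : F)
    (hrow : ∀ j, j ≠ c → W a j = 0) :
    (Matrix.transvection a c t)ᵀ * W * Matrix.transvection a c t = W := by
  ext i j
  simp only [Matrix.transvection, Matrix.transpose_add, Matrix.transpose_one, Matrix.transpose_single,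
    Matrix.add_mul, Matrix.mul_add, Matrix.one_mul, Matrix.mul_one, Matrix.add_apply]
  have h0 : W a a = 0 := hW.1 a
  have hca : W c a = -W a c := hW.2 a c
  have hcol : ∀ i, i ≠ c → W i a = 0 := fun i hi => by rw [hW.2 a i, hrow i hi, neg_zero]
  by_cases hi : i = c <;> by_cases hj : j = c <;>
    simp [hi, hj, h0, hca, hrow, hcol] <;> ring

theorem conj_transvection_moved {W : Matrix (Fin n) (Fin n) F} (hW : IsAlt W) {a c j : Fin n} (hj : j ≠ c)
    (h : W a j ≠ 0) : (Matrix.transvection a c (1 : F))ᵀ * W * Matrix.transvection a c 1 ≠ W := by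
  intro he
  have := congrFun (congrFun he c) j
  simp [Matrix.transvection, Matrix.add_mul, Matrix.mul_add, hj, hW.1 a, Matrix.transpose_single] at this
  exact h this

/-- An element fixing a decomposable matrix and rescaling a transvection. -/
theorem exists_rescale {a c : Fin n} (hac : a ≠ c) {W : Matrix (Fin n) (Fin n) F} (hW : IsWedge W)
    (hrow : ∀ j, j ≠ c → W a j = 0) {σ : F} (hσ : σ ≠ 0) :
    ∃ h : Matrix (Fin n) (Fin n) F, h.det ≠ 0 ∧ IsSquare h.det ∧ hᵀ * W * h = W ∧
      ∀ t, h * Matrix.transvection a c t = Matrix.transvection a c (σ ^ 2 * t) * h := by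
  classical
  by_cases h0 : W a c = 0
  · have hrow' : ∀ j, W a j = 0 := fun j => by
      by_cases hj : j = c
      · rw [hj, h0]
      · exact hrow j hj
    set D : Fin n → F := Function.update 1 a (σ ^ 2) with hD
    have hdet : (diagonal D).det = σ ^ 2 := by
      rw [det_diagonal, hD, Finset.prod_update_of_mem (Finset.mem_univ a)]
      simp
    refine ⟨diagonal D, by rw [hdet]; exact pow_ne_zero _ hσ, by rw [hdet]; exact IsSquare.sq σ, ?_, fun t => ?_⟩
    · ext i j
      rw [Matrix.diagonal_transpose, Matrix.mul_diagonal, Matrix.diagonal_mul]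
      by_cases hi : i = a
      · subst hi; simp [hrow']
      by_cases hj : j = a
      · subst hj; simp [hW.isAlt.2 j i, hrow']
      simp [hD, hi, hj]
    · ext i j
      rw [Matrix.diagonal_mul, Matrix.mul_diagonal]
      simp only [Matrix.transvection, Matrix.add_apply, Matrix.one_apply, Matrix.single_apply]
      by_cases hij : i = j
      · subst hij
        have : ¬ (a = i ∧ c = i) := fun h => hac (h.1.trans h.2.symm)
        simp [this]
      · by_cases hac' : a = i ∧ c = j
        · obtain ⟨rfl, rfl⟩ := hac'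
          simp [hD, hij, Ne.symm hij]
        · simp [hij, hac']
  · set r : Fin n → F := fun j => (σ - 1) * W c j / W c a with hr
    have hca : W c a = -W a c := hW.isAlt.2 a c
    have hca0 : W c a ≠ 0 := by rw [hca]; exact neg_ne_zero.2 h0
    have hra : r a = σ - 1 := by simp [hr, hca0]
    have hrc : r c = 0 := by simp [hr, hW.isAlt.1]
    set h : Matrix (Fin n) (Fin n) F :=
      1 + vecMulVec (Pi.single a 1) r + (σ⁻¹ - 1) • vecMulVec (Pi.single c 1) (Pi.single c 1) with hh
    have hfac : h = (1 + vecMulVec (Pi.single a 1) r) *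
        (1 + vecMulVec ((σ⁻¹ - 1) • Pi.single c 1) (Pi.single c 1)) := by
      have e : vecMulVec (Pi.single a (1 : F)) r * vecMulVec ((σ⁻¹ - 1) • Pi.single c 1) (Pi.single c 1) = 0 := by
        rw [Matrix.vecMulVec_mul_vecMulVec, dotProduct_smul, dotProduct_single, hrc]
        simp
      rw [Matrix.add_mul, Matrix.mul_add, Matrix.mul_add, Matrix.one_mul, Matrix.one_mul, Matrix.mul_one, e,
        add_zero, hh, Matrix.smul_vecMulVec]
      abel
    have hdet : h.det = 1 := by
      rw [hfac, Matrix.det_mul, Matrix.vecMulVec_eq Unit, Matrix.vecMulVec_eq Unit,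
        Matrix.det_one_add_replicateCol_mul_replicateRow, Matrix.det_one_add_replicateCol_mul_replicateRow,
        dotProduct_smul, dotProduct_single, dotProduct_single, hra, Pi.single_eq_same]
      simp [hσ]
    have hW' : W = wedge (Pi.single c 1) (W c) := by
      ext i j
      rw [hW.apply_eq h0 i j, wedge_apply]
      have hai : ∀ i, W a i = (Pi.single c (1 : F) : Fin n → F) i * W a c := fun i => by
        by_cases hi : i = c
        · subst hi; simp
        · simp [hi, hrow i hi]
      rw [hai i, hai j]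
      field_simp
    have hc1 : hᵀ *ᵥ Pi.single c 1 = σ⁻¹ • Pi.single c 1 := by
      ext i
      rw [Matrix.mulVec_single_one]
      by_cases hi : i = c <;>
        simp [hh, vecMulVec_apply, hac.symm, hi, Matrix.one_apply, Ne.symm]
    have hc2 : hᵀ *ᵥ W c = σ • W c := by
      rw [hh, Matrix.transpose_add, Matrix.transpose_add, Matrix.transpose_one, Matrix.transpose_smul,
        Matrix.transpose_vecMulVec, Matrix.transpose_vecMulVec, Matrix.add_mulVec, Matrix.add_mulVec,
        Matrix.one_mulVec, Matrix.smul_mulVec, Matrix.vecMulVec_mulVec, Matrix.vecMulVec_mulVec,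
        single_dotProduct, single_dotProduct, hW.isAlt.1 c]
      ext i
      simp [hr]
      field_simp
      ring
    refine ⟨h, by rw [hdet]; exact one_ne_zero, by rw [hdet]; exact IsSquare.one, ?_, fun t => ?_⟩
    · have := congr_wedge hᵀ (Pi.single c (1 : F)) (W c)
      rw [Matrix.transpose_transpose, ← hW', hc1, hc2] at this
      rw [this, wedge, Matrix.smul_vecMulVec, Matrix.vecMulVec_smul, Matrix.smul_vecMulVec,
        Matrix.vecMulVec_smul, smul_smul, smul_smul, mul_inv_cancel₀ hσ, inv_mul_cancel₀ hσ, one_smul,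
        one_smul]
      exact hW'.symm
    · have e1 : h *ᵥ Pi.single a 1 = σ • Pi.single a 1 := by
        ext i
        rw [Matrix.mulVec_single_one]
        by_cases hi : i = a
        · subst hi; simp [hh, vecMulVec_apply, hra, hac, Matrix.one_apply]
        · simp [hh, vecMulVec_apply, hi, hac, Matrix.one_apply]
      have e2 : (Pi.single c (1 : F) : Fin n → F) ᵥ* h = σ⁻¹ • Pi.single c 1 := by
        rw [← Matrix.mulVec_transpose]; exact hc1
      have hs : ∀ x : F, Matrix.single a c x = x • vecMulVec (Pi.single a (1 : F)) (Pi.single c 1) := fun x => by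
        rw [← Matrix.single_eq_single_vecMulVec_single]; simp
      rw [Matrix.transvection, Matrix.transvection, Matrix.mul_add h, Matrix.mul_one h,
        Matrix.add_mul (1 : Matrix (Fin n) (Fin n) F) (Matrix.single a c (σ ^ 2 * t)) h, Matrix.one_mul h, hs, hs, Matrix.mul_smul, Matrix.smul_mul, Matrix.mul_vecMulVec, Matrix.vecMulVec_mul,
        e1, e2, Matrix.smul_vecMulVec, Matrix.vecMulVec_smul, smul_smul, smul_smul]
      congr 2
      field_simp

theorem trace_levi_root {ψ : AddChar F ℂ} (R : OmPlus n F →* Matrix (Fin k) (Fin k) ℂ) (hn : 4 ≤ n)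
    (hψ : ψ 1 ≠ 1) (hR : ∃ g, R g ≠ 1) (hk : SmallDeg F n k) {a c : Fin n} (hac : a ≠ c) :
    (R (slOm hn (Matrix.SpecialLinearGroup.transvection hac 1))).trace =
      (weightProj (radRep hq R) ψ 0 * R (slOm hn (Matrix.SpecialLinearGroup.transvection hac 1))).trace +
        (((wedgeSet F n).filter fun W => ¬ ∃ j, j ≠ c ∧ W a j ≠ 0).card : ℂ) := by
  classical
  have hadd := radRep_add (hq := hq) R
  have hstr := weight_structure (hq := hq) R hn hψ hR hk
  let L : F → Matrix (Fin k) (Fin k) ℂ := fun t => R (slOm hn (Matrix.SpecialLinearGroup.transvection hac t))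
  have hcomm : ∀ (t : F) (W : Matrix (Fin n) (Fin n) F), L t * weightProj (radRep hq R) ψ
      (flat2 ((Matrix.transvection a c t)ᵀ * W * Matrix.transvection a c t)) =
      weightProj (radRep hq R) ψ (flat2 W) * L t := fun t W =>
    levi_comm_weightProj hn (hq := hq) R ψ
      (Matrix.SpecialLinearGroup.toGL (Matrix.SpecialLinearGroup.transvection hac t)) (by simp) W
  have hzero : ∀ W : Matrix (Fin n) (Fin n) F,
      (Matrix.transvection a c (1 : F))ᵀ * W * Matrix.transvection a c 1 ≠ W →
        (weightProj (radRep hq R) ψ (flat2 W) * L 1).trace = 0 := by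
    intro W hW
    rw [← weightProj_idem hadd hψ (flat2 W), mul_assoc, Matrix.trace_mul_comm, ← hcomm 1 W, mul_assoc,
      weightProj_mul_weightProj hadd hψ, if_neg (fun h => hW (flat2_injective h)), mul_zero, Matrix.trace_zero]
  have hfix : ∀ W ∈ wedgeSet F n, (¬ ∃ j, j ≠ c ∧ W a j ≠ 0) →
      (weightProj (radRep hq R) ψ (flat2 W) * L 1).trace = 1 := by
    intro W hW hrow
    push Not at hrow
    have hWw := mem_wedgeSet.1 hW
    set P := weightProj (radRep hq R) ψ (flat2 W)
    have hP : P * P = P := weightProj_idem hadd hψ _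
    have ht : P.trace = 1 := by
      rw [trace_weightProj hadd hψ, (hstr (flat2 W) fun h => hWw.1 (flat2_injective h)).1 hWw, Nat.cast_one]
    have hc' : ∀ t, P * L t = L t * P := fun t => by
      have := hcomm t W
      rw [conj_transvection_fixed hWw.isAlt t hrow] at this
      exact this.symm
    have hmul : ∀ t, P * L t = (P * L t).trace • P := fun t => by
      rw [← CfsgLib.SlMinDegree.mul_mul_of_trace_one hP ht, mul_assoc, ← hc' t, ← mul_assoc, hP]
    have hLadd : ∀ s t, L (s + t) = L s * L t := fun s t => by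
      simp only [L, ← map_mul]
      congr 2
      exact Subtype.ext (Matrix.transvection_mul_transvection_same _ _ hac s t).symm
    set f : F → ℂ := fun t => (P * L t).trace
    have hfmul : ∀ s t, f (s + t) = f s * f t := fun s t => by
      simp only [f]
      rw [hLadd, ← mul_assoc, hmul s, smul_mul_assoc, Matrix.trace_smul, smul_eq_mul]
      congr 1
      rw [Matrix.trace_smul, ht, smul_eq_mul, mul_one]
    have hf0 : f 0 = 1 := by
      have : L 0 = 1 := by
        simp only [L]
        rw [show Matrix.SpecialLinearGroup.transvection hac (0 : F) = 1 from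
          Subtype.ext (Matrix.transvection_zero _ _), map_one, map_one]
      simp only [f]
      rw [this, mul_one, ht]
    obtain ⟨σ, hσ, hσ2⟩ := exists_scalar_sq hq
    obtain ⟨h, hd, hs, hfixW, hht⟩ := exists_rescale hac hWw hrow hσ
    let g : GL (Fin n) F := GeneralLinearGroup.mkOfDetNeZero h hd
    have hg : IsSquare (g : Matrix (Fin n) (Fin n) F).det := hs
    have hPg : R (leviOm hn g hg) * P = P * R (leviOm hn g hg) := by
      have := levi_comm_weightProj hn (hq := hq) R ψ g hg W
      rwa [show (g : Matrix (Fin n) (Fin n) F)ᵀ * W * (g : Matrix (Fin n) (Fin n) F) = W from hfixW] at this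
    have hginv : R (leviOm hn g hg)⁻¹ * R (leviOm hn g hg) = 1 := by rw [← map_mul, inv_mul_cancel, map_one]
    have hLg : ∀ t, R (leviOm hn g hg) * L t = L (σ ^ 2 * t) * R (leviOm hn g hg) := fun t => by
      simp only [L, ← map_mul]
      congr 1
      apply Subtype.ext
      change CfsgLib.Char2Forms.levi g * CfsgLib.Char2Forms.levi _ =
        CfsgLib.Char2Forms.levi _ * CfsgLib.Char2Forms.levi g
      rw [← map_mul, ← map_mul]
      congr 1
      exact Units.ext (hht t)
    have hfσ : ∀ t, f (σ ^ 2 * t) = f t := fun t => by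
      have e : R (leviOm hn g hg) * (P * L t) = (P * L (σ ^ 2 * t)) * R (leviOm hn g hg) := by
        rw [← mul_assoc, hPg, mul_assoc, hLg, ← mul_assoc]
      simp only [f]
      calc (P * L (σ ^ 2 * t)).trace
          = (P * L (σ ^ 2 * t) * (R (leviOm hn g hg) * R (leviOm hn g hg)⁻¹)).trace := by
            rw [← map_mul, mul_inv_cancel, map_one, mul_one]
        _ = (R (leviOm hn g hg) * (P * L t) * R (leviOm hn g hg)⁻¹).trace := by rw [← mul_assoc, ← e]
        _ = (P * L t).trace := by rw [Matrix.trace_mul_comm, ← mul_assoc, hginv, one_mul]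
    have hσ1 : σ ^ 2 - 1 ≠ 0 := sub_ne_zero.2 hσ2
    set t₀ := (σ ^ 2 - 1)⁻¹
    have e : σ ^ 2 * t₀ = 1 + t₀ := by
      have : (σ ^ 2 - 1) * t₀ = 1 := mul_inv_cancel₀ hσ1
      linear_combination this
    have h1 := hfσ t₀
    rw [e, hfmul] at h1
    have hne : f t₀ ≠ 0 := fun hz => by
      have := hfmul t₀ (-t₀)
      rw [add_neg_cancel, hf0, hz, zero_mul] at this
      exact one_ne_zero this
    exact mul_right_cancel₀ hne (h1.trans (one_mul _).symm)
  have hz : ∀ w, w ≠ 0 → ¬ IsWedge (sq2 w) → weightProj (radRep hq R) ψ w = 0 := fun w hw h =>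
    weightProj_eq_zero hadd hψ ((hstr w hw).2 h)
  change (L 1).trace = (weightProj (radRep hq R) ψ 0 * L 1).trace + _
  conv_lhs => rw [← one_mul (L 1), ← sum_weightProj (R := radRep hq R) (radRep_zero R) hψ, Finset.sum_mul]
  rw [Matrix.trace_sum, ← Finset.add_sum_erase _ _ (Finset.mem_univ (0 : Fin n × Fin n → F))]
  congr 1
  have himg : (wedgeSet F n).image flat2 ⊆ (Finset.univ : Finset (Fin n × Fin n → F)).erase 0 := by
    intro w hw
    obtain ⟨W, hW, rfl⟩ := Finset.mem_image.1 hw
    exact Finset.mem_erase.2 ⟨fun h => (mem_wedgeSet.1 hW).1 (flat2_injective h), Finset.mem_univ _⟩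
  rw [← Finset.sum_subset himg (fun w hw hw' => by
    rw [hz w (Finset.ne_of_mem_erase hw) (fun h => hw' (Finset.mem_image.2 ⟨sq2 w, mem_wedgeSet.2 h, rfl⟩)),
      zero_mul, Matrix.trace_zero]), Finset.sum_image (fun _ _ _ _ h => flat2_injective h),
    ← Finset.sum_filter_add_sum_filter_not (wedgeSet F n) (fun W => ∃ j, j ≠ c ∧ W a j ≠ 0)]
  rw [Finset.sum_eq_zero (fun W hW => ?_), zero_add, Finset.sum_congr rfl (g := fun _ => (1 : ℂ))
    (fun W hW => hfix W (Finset.mem_filter.1 hW).1 (Finset.mem_filter.1 hW).2), Finset.sum_const, nsmul_eq_mul,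
    mul_one]
  obtain ⟨j, hj, hj'⟩ := (Finset.mem_filter.1 hW).2
  exact hzero W (conj_transvection_moved (mem_wedgeSet.1 (Finset.mem_filter.1 hW).1).isAlt hj hj')

/-- An idempotent matrix of natural trace `D` factors through `ℂ^D`. -/
theorem exists_factor {P : Matrix (Fin k) (Fin k) ℂ} (hP : P * P = P) {D : ℕ} (hD : P.trace = D) :
    ∃ (A : Matrix (Fin k) (Fin D) ℂ) (B : Matrix (Fin D) (Fin k) ℂ), A * B = P ∧ B * A = 1 := by
  classical
  set p : Module.End ℂ (Fin k → ℂ) := Matrix.toLin' P with hp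
  have hidem : IsIdempotentElem p := by
    change Matrix.toLin' P * Matrix.toLin' P = Matrix.toLin' P
    rw [Module.End.mul_eq_comp, ← Matrix.toLin'_mul, hP]
  have hproj := LinearMap.IsIdempotentElem.isProj_range p hidem
  have hrk : Module.finrank ℂ (LinearMap.range p) = D := by
    have h := hproj.trace
    rw [Matrix.trace_toLin'_eq, hD] at h
    exact_mod_cast h.symm
  let e : (Fin D → ℂ) ≃ₗ[ℂ] LinearMap.range p :=
    LinearEquiv.ofFinrankEq _ _ (by rw [Module.finrank_fin_fun, hrk])
  let α : (Fin D → ℂ) →ₗ[ℂ] (Fin k → ℂ) := (LinearMap.range p).subtype ∘ₗ e.toLinearMap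
  let β : (Fin k → ℂ) →ₗ[ℂ] (Fin D → ℂ) := e.symm.toLinearMap ∘ₗ p.rangeRestrict
  refine ⟨LinearMap.toMatrix' α, LinearMap.toMatrix' β, ?_, ?_⟩
  · rw [← LinearMap.toMatrix'_comp]
    have : α ∘ₗ β = p := LinearMap.ext fun x => by simp [α, β]
    rw [this, hp, LinearMap.toMatrix'_toLin']
  · rw [← LinearMap.toMatrix'_comp]
    have : β ∘ₗ α = LinearMap.id := LinearMap.ext fun x => by
      simp only [α, β, LinearMap.comp_apply, LinearEquiv.coe_coe, Submodule.coe_subtype, LinearMap.id_apply]
      rw [LinearEquiv.symm_apply_eq]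
      exact Subtype.ext (hproj.map_id _ (e x).2)
    rw [this, LinearMap.toMatrix'_id]

/-- The bound, up to one. -/
theorem degree_pred_bound (R : OmPlus n F →* Matrix (Fin k) (Fin k) ℂ) (hn : 4 ≤ n)
    (hq : 4 ≤ Fintype.card F) (hR : ∃ g, R g ≠ 1) (hk : SmallDeg F n k) :
    (Fintype.card F ^ n - 1) * (Fintype.card F ^ (n - 1) + Fintype.card F) ≤
      (k + 1) * (Fintype.card F ^ 2 - 1) := by
  classical
  set q := Fintype.card F with hqdef
  obtain ⟨ψ, hψ⟩ : ∃ ψ : AddChar F ℂ, ψ 1 ≠ 1 :=
    AddChar.exists_apply_ne_zero.2 (one_ne_zero : (1 : F) ≠ 0)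
  have hadd := radRep_add (hq := hq) R
  set a : Fin n := ⟨0, by omega⟩
  set c : Fin n := ⟨2, by omega⟩
  have hac : a ≠ c := by simp [a, c]
  set P := weightProj (radRep hq R) ψ (0 : Fin n × Fin n → F)
  set D := weightMult (radRep hq R) ψ (0 : Fin n × Fin n → F)
  have hP : P * P = P := weightProj_idem hadd hψ _
  obtain ⟨A, B, hAB, hBA⟩ := exists_factor hP (trace_weightProj hadd hψ (0 : Fin n × Fin n → F))
  have hcomm : ∀ x : Matrix.SpecialLinearGroup (Fin n) F, R (slOm hn x) * P = P * R (slOm hn x) := fun x => by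
    have h := levi_comm_weightProj hn (hq := hq) R ψ (Matrix.SpecialLinearGroup.toGL x) (by simp) 0
    rw [Matrix.mul_zero, Matrix.zero_mul] at h
    exact h
  let φ : Matrix.SpecialLinearGroup (Fin n) F →* Matrix (Fin D) (Fin D) ℂ :=
    { toFun := fun x => B * R (slOm hn x) * A
      map_one' := by rw [map_one, map_one, Matrix.mul_one, hBA]
      map_mul' := fun x y => by
        rw [map_mul, map_mul]
        calc B * (R (slOm hn x) * R (slOm hn y)) * A
            = B * (R (slOm hn x) * R (slOm hn y)) * A * (B * A) := by rw [hBA, Matrix.mul_one]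
          _ = B * R (slOm hn x) * (R (slOm hn y) * P) * A := by rw [← hAB]; simp only [Matrix.mul_assoc]
          _ = B * R (slOm hn x) * (P * R (slOm hn y)) * A := by rw [hcomm]
          _ = B * R (slOm hn x) * A * (B * R (slOm hn y) * A) := by rw [← hAB]; simp only [Matrix.mul_assoc] }
  set x' := Matrix.SpecialLinearGroup.transvection hac (1 : F)
  have hφ : (φ x').trace = (P * R (slOm hn x')).trace := by
    change (B * R (slOm hn x') * A).trace = _
    rw [Matrix.trace_mul_comm, ← Matrix.mul_assoc, hAB]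
  have hkC : (k : ℂ) = (D : ℂ) + ((wedgeSet F n).card : ℂ) := by
    exact_mod_cast degree_eq_add (hq := hq) R hn hψ hR hk
  have hx := trace_root R hn hq hR hk
    (isPair_single (F := F) (a := Sum.inl a) (b := Sum.inr c) (by simp) (by simp [hac.symm]))
  rw [rootOm_inr hn hac, trace_levi_root (ψ := ψ) (hq := hq) R hn hψ hR hk hac, hkC] at hx
  have hsplit := Finset.card_filter_add_card_filter_not (s := wedgeSet F n) (fun W => ∃ j, j ≠ c ∧ W a j ≠ 0)
  rw [card_row_moved hac] at hsplit
  have hlt : (q ^ (n - 1) - q) * q ^ (n - 2) < q ^ (2 * n - 3) := by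
    have : q ^ (2 * n - 3) = q ^ (n - 1) * q ^ (n - 2) := by rw [← pow_add]; congr 1; omega
    rw [this]
    refine Nat.mul_lt_mul_of_pos_right ?_ (pow_pos (by omega) _)
    have : 0 < q ^ (n - 1) := pow_pos (by omega) _
    omega
  have hne : (φ x').trace ≠ (D : ℂ) := by
    intro he
    rw [hφ] at he
    rw [he] at hx
    have h2 : ((((q ^ (n - 1) - q) * q ^ (n - 2) : ℕ)) : ℂ) = ((q ^ (2 * n - 3) : ℕ) : ℂ) := by
      have h3 : (((q ^ (n - 1) - q) * q ^ (n - 2) : ℕ) : ℂ) +
          (((wedgeSet F n).filter fun W => ¬ ∃ j, j ≠ c ∧ W a j ≠ 0).card : ℂ) =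
            ((wedgeSet F n).card : ℂ) := by exact_mod_cast hsplit
      push_cast at hx ⊢
      push_cast at h3
      linear_combination h3 - hx
    exact hlt.ne (Nat.cast_injective h2)
  have hD := sl_degree_bound hn hq φ x' hne
  rw [← hqdef] at hD
  have hdiv : q - 1 ∣ q ^ n - q := by
    obtain ⟨t, ht⟩ := Nat.sub_one_dvd_pow_sub_one q (n - 1)
    refine ⟨q * t, ?_⟩
    have : q ^ n = q * q ^ (n - 1) := by rw [← pow_succ']; congr 1; omega
    rw [this, show q * q ^ (n - 1) - q = q * (q ^ (n - 1) - 1) by rw [Nat.mul_sub, mul_one], ht]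
    ring
  have hD' : q ^ n - q ≤ D * (q - 1) := by
    rw [← Nat.div_mul_cancel hdiv]; exact Nat.mul_le_mul_right _ hD
  have hkn := degree_eq_add (hq := hq) R hn hψ hR hk
  have hS := card_wedgeSet (F := F) n
  rw [← hqdef] at hS
  obtain ⟨p, hp⟩ : ∃ p, q = p + 1 := ⟨q - 1, by omega⟩
  have hq2 : q ^ 2 - 1 = (p + 2) * p := by rw [hp]; ring_nf; omega
  have e1 : q ^ n - q + q = q ^ n := Nat.sub_add_cancel (Nat.le_self_pow (by omega) q)
  rw [hp, Nat.add_sub_cancel] at hD'
  obtain ⟨X, hX⟩ : ∃ X, q ^ n = X + 1 := ⟨q ^ n - 1, by have := pow_pos (show 0 < q by omega) n; omega⟩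
  obtain ⟨U, hU⟩ : ∃ U, q ^ (n - 1) = U + 1 := ⟨q ^ (n - 1) - 1, by have := pow_pos (show 0 < q by omega) (n - 1); omega⟩
  rw [hq2] at hS ⊢
  rw [hX, hU, Nat.add_sub_cancel, Nat.add_sub_cancel] at hS
  rw [hX, hU, Nat.add_sub_cancel]
  have hD'' : X ≤ D * p + p := by rw [hp] at hX; omega
  have h5 := Nat.mul_le_mul_left (p + 2) hD''
  rw [hkn, hp]
  nlinarith [h5, hS]

end CfsgLib.OrthPlusDeg
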