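import Cfsg.Agent.SympWeil.SymOrbit

/-!
Alternating matrices over a finite field: the matrices of rank two, and the orbits of the matrices of
square determinant acting by congruence.
-/

set_option autoImplicit false
set_option linter.unusedSectionVars false

namespace CfsgLib.OrthPlusDeg

open Matrix

variable {F : Type*} [Field F] {n : ℕ}

/-- Alternating matrices. -/
def IsAlt (W : Matrix (Fin n) (Fin n) F) : Prop := (∀ i, W i i = 0) ∧ ∀ i j, W j i = -W i j

/-- The matrix of `a ∧ b`. -/
def wedge (a b : Fin n → F) : Matrix (Fin n) (Fin n) F := vecMulVec a b - vecMulVec b a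

theorem wedge_apply (a b : Fin n → F) (i j : Fin n) : wedge a b i j = a i * b j - b i * a j := rfl

theorem isAlt_wedge (a b : Fin n → F) : IsAlt (wedge a b) :=
  ⟨fun i => by rw [wedge_apply]; ring, fun i j => by rw [wedge_apply, wedge_apply]; ring⟩

theorem congr_wedge (g : Matrix (Fin n) (Fin n) F) (a b : Fin n → F) :
    g * wedge a b * gᵀ = wedge (g *ᵥ a) (g *ᵥ b) := by
  simp only [wedge, Matrix.mul_sub, Matrix.sub_mul, Matrix.mul_vecMulVec, Matrix.vecMulVec_mul,
    Matrix.vecMul_transpose]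

/-- Nonzero decomposable alternating matrices. -/
def IsWedge (W : Matrix (Fin n) (Fin n) F) : Prop := W ≠ 0 ∧ ∃ a b, wedge a b = W

theorem IsWedge.isAlt {W : Matrix (Fin n) (Fin n) F} (h : IsWedge W) : IsAlt W := by
  obtain ⟨-, a, b, rfl⟩ := h; exact isAlt_wedge a b

theorem IsWedge.congr {W g : Matrix (Fin n) (Fin n) F} (h : IsWedge W) (hg : g.det ≠ 0) :
    IsWedge (g * W * gᵀ) := by
  obtain ⟨h0, a, b, rfl⟩ := h
  refine ⟨fun hz => h0 ?_, _, _, (congr_wedge g a b).symm⟩
  have hu : IsUnit g.det := hg.isUnit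
  have hu' : IsUnit gᵀ.det := by rw [Matrix.det_transpose]; exact hu
  calc wedge a b = g⁻¹ * (g * wedge a b * gᵀ) * (gᵀ)⁻¹ := by
        simp only [← Matrix.mul_assoc, Matrix.nonsing_inv_mul _ hu, Matrix.one_mul]
        rw [Matrix.mul_assoc, Matrix.mul_nonsing_inv _ hu', Matrix.mul_one]
    _ = 0 := by rw [hz]; simp

/-- A decomposable matrix is determined by two rows. -/
theorem IsWedge.apply_eq {W : Matrix (Fin n) (Fin n) F} (h : IsWedge W) {p q : Fin n}
    (hpq : W p q ≠ 0) (i j : Fin n) : W i j = (W p i * W q j - W p j * W q i) / W p q := by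
  obtain ⟨-, a, b, rfl⟩ := h
  rw [eq_div_iff hpq]
  simp only [wedge_apply]
  ring

theorem exists_ne_zero_of_row {W : Matrix (Fin n) (Fin n) F} (h : W ≠ 0) : ∃ p q, W p q ≠ 0 := by
  by_contra hc
  push Not at hc
  exact h (Matrix.ext hc)

/-- A permutation with two prescribed values. -/
theorem exists_perm_pair {ι : Type*} [DecidableEq ι] {a b p q : ι} (hab : a ≠ b) (hpq : p ≠ q) :
    ∃ σ : Equiv.Perm ι, σ a = p ∧ σ b = q := by
  refine ⟨Equiv.swap a p * Equiv.swap b ((Equiv.swap a p) q), ?_, ?_⟩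
  · have h1 : a ≠ (Equiv.swap a p) q := fun h => by
      have := congrArg (Equiv.swap a p) h
      rw [Equiv.swap_apply_left, Equiv.swap_apply_self] at this
      exact hpq this
    rw [Equiv.Perm.mul_apply, Equiv.swap_apply_of_ne_of_ne hab h1, Equiv.swap_apply_left]
  · rw [Equiv.Perm.mul_apply, Equiv.swap_apply_left, Equiv.swap_apply_self]

/-- Every nonzero decomposable matrix is congruent to `e_a ∧ e_b` by a matrix of determinant one. -/
theorem IsWedge.exists_det_one (hn : 3 ≤ n) {a b : Fin n} (hab : a ≠ b) {W : Matrix (Fin n) (Fin n) F}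
    (h : IsWedge W) :
    ∃ g : Matrix (Fin n) (Fin n) F, g.det = 1 ∧
      g * wedge (Pi.single a 1) (Pi.single b 1) * gᵀ = W := by
  classical
  obtain ⟨p, q, hpq⟩ := exists_ne_zero_of_row h.1
  have hne : p ≠ q := fun e => hpq (by rw [e]; exact h.isAlt.1 q)
  set c := W p q with hc
  obtain ⟨σ, hσa, hσb⟩ := exists_perm_pair hab hne
  obtain ⟨d, hda, hdb⟩ : ∃ d : Fin n, d ≠ a ∧ d ≠ b := by
    by_contra hcon
    push Not at hcon
    have hsub : (Finset.univ : Finset (Fin n)) ⊆ {a, b} := fun x _ => by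
      by_cases hx : x = a
      · simp [hx]
      · simp [hcon x hx]
    have := (Finset.card_le_card hsub).trans Finset.card_le_two
    rw [Finset.card_univ, Fintype.card_fin] at this
    omega
  set s : F := ((Equiv.Perm.sign σ : ℤ) : F) with hs
  have hs0 : s * s = 1 := by
    rcases Int.units_eq_one_or (Equiv.Perm.sign σ) with h1 | h1 <;> simp [hs, h1]
  set u : Fin n → F := fun i => W i q / c with hu
  set v : Fin n → F := fun i => W p i / c with hv
  -- columns: `a ↦ c u`, `b ↦ v`, the others are scaled unit vectors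
  set M : Matrix (Fin n) (Fin n) F :=
    ((1 : Matrix (Fin n) (Fin n) F).updateCol p u).updateCol q v with hM
  set D : Fin n → F := Function.update (Function.update 1 a c) d (c⁻¹ * s) with hD
  set P : Matrix (Fin n) (Fin n) F := (1 : Matrix (Fin n) (Fin n) F).submatrix id σ with hP
  refine ⟨M * (P * diagonal D), ?_, ?_⟩
  · have hdetP : P.det = s := by
      rw [hP, hs]
      simp [Matrix.det_permute']
    have hdetD : (diagonal D).det = s := by
      rw [det_diagonal, hD, Finset.prod_update_of_mem (Finset.mem_univ d), ← Finset.erase_eq,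
        Finset.prod_update_of_mem (Finset.mem_erase.2 ⟨hda.symm, Finset.mem_univ a⟩)]
      simp
      field_simp
    have hvp : v p = 0 := by simp [hv, h.isAlt.1 p]
    have hdetM : M.det = 1 := by
      have h1 : M = (1 : Matrix (Fin n) (Fin n) F).updateCol p u * (1 : Matrix (Fin n) (Fin n) F).updateCol q v := by
        ext i j
        rw [hM, Matrix.mul_apply]
        by_cases hj : j = q
        · subst hj
          simp only [Matrix.updateCol_self]
          rw [Finset.sum_eq_single i]
          · simp [Matrix.updateCol_apply]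
            by_cases hi : i = p
            · subst hi; simp [hvp]
            · simp [hi]
          · intro k _ hk
            by_cases hkp : k = p
            · subst hkp; simp [hvp]
            · simp [Matrix.updateCol_apply, hkp, Ne.symm hk]
          · simp
        · rw [Finset.sum_eq_single j]
          · simp [Matrix.updateCol_apply, hj]
          · intro k _ hk
            simp [Matrix.updateCol_apply, hj, hk]
          · simp
      rw [h1, Matrix.det_mul, ← Matrix.cramer_apply, ← Matrix.cramer_apply, Matrix.cramer_one]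
      have e1 : u p = 1 := div_self hpq
      have e2 : v q = 1 := div_self hpq
      simp [e1, e2]
    rw [Matrix.det_mul, Matrix.det_mul, hdetM, hdetP, hdetD, one_mul, hs0]
  · rw [congr_wedge]
    have hcol : ∀ k : Fin n, (P * diagonal D) *ᵥ Pi.single k 1 = D k • Pi.single (σ k) 1 := by
      intro k
      ext i
      simp [hP, Matrix.mulVec_single_one, Matrix.mul_diagonal, Matrix.one_apply, Pi.single_apply]
    have hMp : M *ᵥ Pi.single p 1 = u := by
      ext i; simp [hM, Matrix.mulVec_single_one, Matrix.updateCol_apply, hne]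
    have hMq : M *ᵥ Pi.single q 1 = v := by
      ext i; simp [hM, Matrix.mulVec_single_one, Matrix.updateCol_apply]
    have hDa : D a = c := by simp [hD, hda.symm]
    have hDb : D b = 1 := by simp [hD, hdb.symm, hab.symm]
    rw [← Matrix.mulVec_mulVec (Pi.single a 1) M, ← Matrix.mulVec_mulVec (Pi.single b 1) M, hcol, hcol, hσa, hσb, hDa, hDb, one_smul,
      Matrix.mulVec_smul, hMp, hMq]
    ext i j
    rw [h.apply_eq hpq i j, wedge_apply]
    simp only [Pi.smul_apply, smul_eq_mul, hu, hv, h.isAlt.2 q i, h.isAlt.2 q j, ← hc]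
    field_simp
    ring

variable [Fintype F] [DecidableEq F]

open scoped Classical in
/-- The nonzero decomposable alternating matrices. -/
noncomputable def wedgeSet (F : Type*) [Field F] [Fintype F] (n : ℕ) : Finset (Matrix (Fin n) (Fin n) F) :=
  Finset.univ.filter IsWedge

theorem mem_wedgeSet {W : Matrix (Fin n) (Fin n) F} : W ∈ wedgeSet F n ↔ IsWedge W := by
  simp [wedgeSet]

/-- The decomposable matrices whose `p`-th row lies in a given set. -/
theorem card_wedge_row (p : Fin n) (R : Finset (Fin n → F)) (hR : ∀ r ∈ R, r ≠ 0 ∧ r p = 0) :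
    ((wedgeSet F n).filter fun W => W p ∈ R).card = R.card * Fintype.card F ^ (n - 2) := by
  classical
  rw [Finset.card_eq_sum_card_fiberwise (s := (wedgeSet F n).filter fun W => W p ∈ R) (t := R)
    (f := fun W : Matrix (Fin n) (Fin n) F => W p) (fun W hW => (Finset.mem_filter.1 hW).2)]
  rw [← smul_eq_mul, ← Finset.sum_const]
  refine Finset.sum_congr rfl fun r hr => ?_
  obtain ⟨hr0, hrp⟩ := hR r hr
  obtain ⟨q, hq⟩ := Function.ne_iff.1 hr0
  have hq' : r q ≠ 0 := hq
  have hpq : p ≠ q := fun e => hq (by rw [← e, hrp]; rfl)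
  set A : Fin n → Finset F := fun i => if i = q then {0} else if i = p then {-r q} else Finset.univ with hA
  have hcard : (Fintype.piFinset A).card = Fintype.card F ^ (n - 2) := by
    rw [Fintype.card_piFinset, ← Finset.mul_prod_erase _ _ (Finset.mem_univ q),
      ← Finset.mul_prod_erase _ _ (Finset.mem_erase.2 ⟨hpq, Finset.mem_univ p⟩)]
    rw [Finset.prod_congr rfl (g := fun _ => Fintype.card F) (fun i hi => ?_), Finset.prod_const,
      Finset.card_erase_of_mem (Finset.mem_erase.2 ⟨hpq, Finset.mem_univ p⟩),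
      Finset.card_erase_of_mem (Finset.mem_univ q), Finset.card_univ, Fintype.card_fin]
    · simp [hA, hpq, show n - 1 - 1 = n - 2 by omega]
    · simp only [Finset.mem_erase, Finset.mem_univ, and_true] at hi
      simp [hA, hi.1, hi.2]
  rw [← hcard]
  have hmem : ∀ W ∈ ((wedgeSet F n).filter fun W => W p ∈ R).filter (fun W => W p = r),
      IsWedge W ∧ W p = r ∧ W p q ≠ 0 := by
    intro W hW
    simp only [Finset.mem_filter, mem_wedgeSet] at hW
    exact ⟨hW.1.1, hW.2, by rw [hW.2]; exact hq'⟩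
  refine Finset.card_bij (fun W _ => W q) ?_ ?_ ?_
  · intro W hWmem
    obtain ⟨hWw, hWp, hWpq⟩ := hmem W hWmem
    refine Fintype.mem_piFinset.2 fun i => ?_
    by_cases hi : i = q
    · subst hi; simp [hA, hWw.isAlt.1]
    by_cases hi' : i = p
    · subst hi'; simp [hA, hi, hWw.isAlt.2 i q, hWp]
    · simp [hA, hi, hi']
  · intro W hW W' hW' (he : W q = W' q)
    obtain ⟨hW, hWp, hWpq⟩ := hmem W hW
    obtain ⟨hW', hWp', hWpq'⟩ := hmem W' hW'
    ext i j
    rw [hW.apply_eq hWpq, hW'.apply_eq hWpq', hWp, hWp', he]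
  · intro s hs
    have hsq : s q = 0 := by simpa [hA] using Fintype.mem_piFinset.1 hs q
    have hsp : s p = -r q := by simpa [hA, hpq] using Fintype.mem_piFinset.1 hs p
    set W := wedge ((r q)⁻¹ • r) s with hW
    have hWp : W p = r := by
      funext j
      simp [hW, wedge_apply, hrp, hsp]
      field_simp
    have hWq : W q = s := by
      funext j
      simp [hW, wedge_apply, hsq, inv_mul_cancel₀ hq']
    refine ⟨W, ?_, hWq⟩
    simp only [Finset.mem_filter, mem_wedgeSet]
    refine ⟨⟨⟨fun h0 => hq ?_, _, _, rfl⟩, by rw [hWp]; exact hr⟩, hWp⟩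
    rw [← hWp, h0]; rfl

/-- The number of nonzero decomposable alternating matrices. -/
theorem card_wedgeSet : ∀ n : ℕ, (Fintype.card F ^ 2 - 1) * (wedgeSet F n).card =
    (Fintype.card F ^ n - 1) * (Fintype.card F ^ (n - 1) - 1) := by
  classical
  intro n
  induction n with
  | zero =>
    have : wedgeSet F 0 = ∅ := Finset.eq_empty_iff_forall_notMem.2 fun W hW =>
      (mem_wedgeSet.1 hW).1 (Subsingleton.elim _ _)
    simp [this]
  | succ m ih =>
    set q := Fintype.card F with hq
    have hq1 : 1 ≤ q := Fintype.card_pos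
    set R : Finset (Fin (m + 1) → F) := Finset.univ.filter fun r => r ≠ 0 ∧ r 0 = 0 with hR
    have hRcard : R.card = q ^ m - 1 := by
      have : R = ((Finset.univ : Finset (Fin m → F)).erase 0).image (fun t => Fin.cons 0 t) := by
        ext r
        simp only [hR, Finset.mem_filter, Finset.mem_univ, true_and, Finset.mem_image, Finset.mem_erase,
          and_true]
        constructor
        · rintro ⟨h0, h00⟩
          refine ⟨Fin.tail r, fun ht => h0 ?_, ?_⟩
          · rw [← Fin.cons_self_tail r, ht, h00]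
            exact funext fun i => Fin.cases rfl (fun _ => rfl) i
          · rw [← h00]; exact Fin.cons_self_tail r
        · rintro ⟨t, ht, rfl⟩
          refine ⟨fun h => ht (funext fun i => ?_), rfl⟩
          simpa using congrFun h i.succ
      rw [this, Finset.card_image_of_injective _ (Fin.cons_right_injective _),
        Finset.card_erase_of_mem (Finset.mem_univ _), Finset.card_univ, Fintype.card_fun, Fintype.card_fin]
    have h1 : ((wedgeSet F (m + 1)).filter fun W => W 0 ∈ R).card = (q ^ m - 1) * q ^ (m - 1) := by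
      rw [card_wedge_row 0 R fun r hr => (Finset.mem_filter.1 hr).2, hRcard,
        show m + 1 - 2 = m - 1 by omega]
    have h2 : ((wedgeSet F (m + 1)).filter fun W => ¬ W 0 ∈ R).card = (wedgeSet F m).card := by
      refine Finset.card_bij (fun W _ => W.submatrix Fin.succ Fin.succ) ?_ ?_ ?_
      · intro W hW
        simp only [Finset.mem_filter, mem_wedgeSet, hR, Finset.mem_univ, true_and] at hW
        obtain ⟨hW, hrow⟩ := hW
        have hrow0 : W 0 = 0 := by
          by_contra h
          exact hrow ⟨h, hW.isAlt.1 0⟩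
        obtain ⟨hW0, a, b, hab⟩ := hW
        refine mem_wedgeSet.2 ⟨fun h => hW0 ?_, a ∘ Fin.succ, b ∘ Fin.succ, ?_⟩
        · ext i j
          refine Fin.cases (congrFun hrow0 j) (fun i => ?_) i
          refine Fin.cases ?_ (fun j => congrFun (congrFun h i) j) j
          have h0 : W 0 i.succ = 0 := congrFun hrow0 _
          rw [← hab] at h0 ⊢
          rw [(isAlt_wedge a b).2 0 i.succ, h0, neg_zero]; rfl
        · ext i j; rw [← hab]; rfl
      · intro W hW W' hW' (he : W.submatrix Fin.succ Fin.succ = W'.submatrix Fin.succ Fin.succ)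
        have key : ∀ V ∈ (wedgeSet F (m + 1)).filter (fun W => ¬ W 0 ∈ R),
            IsWedge V ∧ V 0 = 0 := by
          intro V hV
          simp only [Finset.mem_filter, mem_wedgeSet, hR, Finset.mem_univ, true_and] at hV
          refine ⟨hV.1, ?_⟩
          by_contra h
          exact hV.2 ⟨h, hV.1.isAlt.1 0⟩
        obtain ⟨hW, hW0⟩ := key W hW
        obtain ⟨hW', hW0'⟩ := key W' hW'
        ext i j
        refine Fin.cases ?_ (fun i => ?_) i
        · rw [hW0, hW0']
        refine Fin.cases ?_ (fun j => congrFun (congrFun he i) j) j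
        rw [hW.isAlt.2 0 i.succ, hW'.isAlt.2 0 i.succ, hW0, hW0']
      · intro V hV
        obtain ⟨hV0, a, b, rfl⟩ := mem_wedgeSet.1 hV
        have hsub : (wedge (Fin.cons 0 a) (Fin.cons 0 b) : Matrix (Fin (m + 1)) (Fin (m + 1)) F).submatrix
            Fin.succ Fin.succ = wedge a b := by ext i j; simp [wedge_apply]
        refine ⟨wedge (Fin.cons 0 a) (Fin.cons 0 b), ?_, hsub⟩
        simp only [Finset.mem_filter, mem_wedgeSet, hR, Finset.mem_univ, true_and]
        refine ⟨⟨fun h => hV0 (by rw [← hsub, h]; rfl), _, _, rfl⟩, fun h => h.1 (funext fun j => ?_)⟩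
        simp [wedge_apply]
    have hsplit := Finset.card_filter_add_card_filter_not (s := wedgeSet F (m + 1)) (fun W => W 0 ∈ R)
    rw [h1, h2] at hsplit
    rw [← hsplit, Nat.mul_add, ih, Nat.add_sub_cancel]
    rcases Nat.eq_zero_or_pos m with rfl | hm
    · simp
    obtain ⟨j, rfl⟩ : ∃ j, m = j + 1 := ⟨m - 1, by omega⟩
    rw [Nat.add_sub_cancel]
    have e1 : 1 ≤ q ^ j := Nat.one_le_pow _ _ hq1
    have e2 : 1 ≤ q ^ (j + 1) := Nat.one_le_pow _ _ hq1
    have e3 : 1 ≤ q ^ (j + 1 + 1) := Nat.one_le_pow _ _ hq1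
    have e4 : 1 ≤ q ^ 2 := Nat.one_le_pow _ _ hq1
    zify [e1, e2, e3, e4]
    ring

/-- The orbit under congruence by matrices of square determinant. -/
noncomputable def sqOrbit (W : Matrix (Fin n) (Fin n) F) : Finset (Matrix (Fin n) (Fin n) F) :=
  letI := Classical.decPred fun M : Matrix (Fin n) (Fin n) F =>
    ∃ g : Matrix (Fin n) (Fin n) F, g.det ≠ 0 ∧ IsSquare g.det ∧ g * W * gᵀ = M
  Finset.univ.filter fun M => ∃ g : Matrix (Fin n) (Fin n) F, g.det ≠ 0 ∧ IsSquare g.det ∧ g * W * gᵀ = M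

theorem mem_sqOrbit {W M : Matrix (Fin n) (Fin n) F} :
    M ∈ sqOrbit W ↔ ∃ g : Matrix (Fin n) (Fin n) F, g.det ≠ 0 ∧ IsSquare g.det ∧ g * W * gᵀ = M := by
  simp [sqOrbit]

theorem sqOrbit_trans {W M g : Matrix (Fin n) (Fin n) F} (hM : M ∈ sqOrbit W) (hg : g.det ≠ 0)
    (hs : IsSquare g.det) : g * M * gᵀ ∈ sqOrbit W := by
  obtain ⟨h, hh, hhs, rfl⟩ := mem_sqOrbit.1 hM
  refine mem_sqOrbit.2 ⟨g * h, ?_, ?_, ?_⟩
  · rw [Matrix.det_mul]; exact mul_ne_zero hg hh
  · rw [Matrix.det_mul]; exact hs.mul hhs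
  · simp only [Matrix.transpose_mul, Matrix.mul_assoc]

omit [Fintype F] [DecidableEq F] in
theorem dot_alt_self {B : Matrix (Fin n) (Fin n) F} (hB : IsAlt B) (x : Fin n → F) :
    x ⬝ᵥ (B *ᵥ x) = 0 := by
  set V : Matrix (Fin n) (Fin n) F := Matrix.of fun i j => if i < j then B i j else 0
  have hV : B = V - Vᵀ := by
    ext i j
    rcases lt_trichotomy i j with h | rfl | h
    · simp [V, h, h.not_gt]
    · simp [V, hB.1]
    · simp [V, h, h.not_gt, hB.2 j i]
  rw [hV, Matrix.sub_mulVec, dotProduct_sub, Matrix.mulVec_transpose, dotProduct_comm x (x ᵥ* V),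
    ← Matrix.dotProduct_mulVec, sub_self]

omit [Fintype F] [DecidableEq F] in
theorem dot_alt_comm {B : Matrix (Fin n) (Fin n) F} (hB : IsAlt B) (x y : Fin n → F) :
    x ⬝ᵥ (B *ᵥ y) = -(y ⬝ᵥ (B *ᵥ x)) := by
  have h := dot_alt_self hB (x + y)
  simp only [Matrix.mulVec_add, dotProduct_add, add_dotProduct, dot_alt_self hB] at h
  linear_combination h

omit [Fintype F] [DecidableEq F] in
theorem IsAlt.congr {B : Matrix (Fin n) (Fin n) F} (hB : IsAlt B) (g : Matrix (Fin n) (Fin n) F) :
    IsAlt (g * B * gᵀ) :=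
  ⟨fun i => by rw [CfsgLib.SympWeil.congr_apply', dot_alt_self hB],
    fun i j => by rw [CfsgLib.SympWeil.congr_apply', CfsgLib.SympWeil.congr_apply', dot_alt_comm hB]⟩

omit [Fintype F] [DecidableEq F] in
/-- `GL_n` of determinant one is transitive on nonzero vectors. -/
theorem exists_det_one_mulVec (hn : 2 ≤ n) {x y : Fin n → F} (hx : x ≠ 0) (hy : y ≠ 0) :
    ∃ G : Matrix (Fin n) (Fin n) F, G.det = 1 ∧ G *ᵥ x = y := by
  classical
  obtain ⟨m, rfl⟩ : ∃ m, n = m + 1 + 1 := ⟨n - 2, by omega⟩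
  set e : Fin (m + 1 + 1) → F := Pi.single 0 1
  have he : e ≠ 0 := fun h => one_ne_zero (show (1 : F) = 0 by simpa [e] using congrFun h 0)
  obtain ⟨A, hA, hAx⟩ := CfsgLib.SympWeil.exists_det_mulVec hx he
  obtain ⟨B, hB, hBy⟩ := CfsgLib.SympWeil.exists_det_mulVec he hy
  refine ⟨B * diagonal (Function.update 1 1 (B.det * A.det)⁻¹) * A, ?_, ?_⟩
  · rw [Matrix.det_mul, Matrix.det_mul, det_diagonal, Finset.prod_update_of_mem (Finset.mem_univ _)]
    simp
    field_simp
  · have hD : diagonal (Function.update 1 1 (B.det * A.det)⁻¹) *ᵥ e = e := by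
      ext i
      rw [Matrix.mulVec_diagonal]
      by_cases hi : i = 0
      · subst hi; simp [e, Function.update_of_ne]
      · simp [e, hi]
    rw [← Matrix.mulVec_mulVec, ← Matrix.mulVec_mulVec, hAx, hD, hBy]

/-- Block matrix `[[1, 0], [u, G]]`. -/
private def blockLow {m : ℕ} (u : Fin m → F) (G : Matrix (Fin m) (Fin m) F) :
    Matrix (Fin (m + 1)) (Fin (m + 1)) F :=
  Matrix.of (Fin.cons (Fin.cons 1 0) fun i => Fin.cons (u i) (G i))

private theorem det_blockLow {m : ℕ} (u : Fin m → F) (G : Matrix (Fin m) (Fin m) F) :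
    (blockLow u G).det = G.det := by
  rw [Matrix.det_succ_row_zero, Finset.sum_eq_single 0]
  · have : (blockLow u G).submatrix Fin.succ (Fin.succAbove 0) = G := by
      ext i j; simp [blockLow]
    rw [this]; simp [blockLow]
  · intro j _ hj
    obtain ⟨j, rfl⟩ := Fin.exists_succ_eq.2 hj
    simp [blockLow]
  · simp

private theorem blockLow_col {m : ℕ} (u : Fin m → F) (G : Matrix (Fin m) (Fin m) F)
    (M : Matrix (Fin (m + 1)) (Fin (m + 1)) F) (i : Fin m) :
    (blockLow u G * M * (blockLow u G)ᵀ) i.succ 0 = u i * M 0 0 + (G *ᵥ fun j => M j.succ 0) i := by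
  simp [CfsgLib.SympWeil.congr_apply', blockLow, dotProduct, Matrix.mulVec, Fin.sum_univ_succ]

private theorem blockLow_block_one {m : ℕ} (u : Fin m → F) {M : Matrix (Fin (m + 1)) (Fin (m + 1)) F}
    (hM : IsAlt M) :
    (blockLow u 1 * M * (blockLow u 1)ᵀ).submatrix Fin.succ Fin.succ =
      M.submatrix Fin.succ Fin.succ + wedge (fun i => M i.succ 0) u := by
  ext i j
  simp [CfsgLib.SympWeil.congr_apply', blockLow, dotProduct, Matrix.mulVec, Fin.sum_univ_succ,
    Matrix.one_apply, wedge_apply, hM.1 0, hM.2 j.succ 0]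
  ring

private theorem blockLow_block_zero {m : ℕ} (G : Matrix (Fin m) (Fin m) F)
    (M : Matrix (Fin (m + 1)) (Fin (m + 1)) F) :
    (blockLow 0 G * M * (blockLow 0 G)ᵀ).submatrix Fin.succ Fin.succ =
      G * M.submatrix Fin.succ Fin.succ * Gᵀ := by
  ext i j
  simp [CfsgLib.SympWeil.congr_apply', blockLow, dotProduct, Matrix.mulVec, Fin.sum_univ_succ]

/-- An alternating matrix whose block is `z ∧ v` modulo the first column `v` is decomposable. -/
theorem exists_transverse {m : ℕ} {B : Matrix (Fin m) (Fin m) F} (hB : IsAlt B) {v : Fin m → F}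
    (hv : v ≠ 0) (hw : ∀ u : Fin m → F, B ≠ wedge v u) :
    ∃ f : Fin m → F, f ⬝ᵥ v = 0 ∧ ∀ c : F, B *ᵥ f ≠ c • v := by
  classical
  by_contra hc
  push Not at hc
  obtain ⟨k, hk⟩ := Function.ne_iff.1 hv
  set φ : Fin m → F := Pi.single k (v k)⁻¹ with hφ
  have hφv : φ ⬝ᵥ v = 1 := by rw [hφ, single_dotProduct, inv_mul_cancel₀ hk]
  set u := B *ᵥ φ
  refine hw (-u) (Matrix.ext_of_mulVec_single fun j => ?_)
  generalize (Pi.single j 1 : Fin m → F) = y
  set t := y ⬝ᵥ v
  obtain ⟨c, hcv⟩ := hc (y - t • φ) (by rw [sub_dotProduct, smul_dotProduct, hφv, smul_eq_mul, mul_one, sub_self])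
  have hBy : B *ᵥ y = t • u + c • v := by
    rw [← hcv, Matrix.mulVec_sub, Matrix.mulVec_smul, add_sub_cancel]
  have h1 : -(y ⬝ᵥ u) = c := by
    have h2 : φ ⬝ᵥ u = 0 := dot_alt_self hB φ
    have h3 : φ ⬝ᵥ (B *ᵥ y) = -(y ⬝ᵥ u) := dot_alt_comm hB φ y
    rw [← h3, hBy, dotProduct_add, dotProduct_smul, dotProduct_smul, hφv, h2, smul_zero, zero_add,
      smul_eq_mul, mul_one]
  rw [hBy, wedge, Matrix.sub_mulVec, Matrix.vecMulVec_mulVec, Matrix.vecMulVec_mulVec, op_smul_eq_smul,
    op_smul_eq_smul, ← h1, dotProduct_comm v y, neg_dotProduct, dotProduct_comm u y, smul_neg,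
    sub_neg_eq_add, add_comm]

/-- Orbits of alternating matrices that are not decomposable are big. -/
theorem card_sqOrbit_ge (hn : 4 ≤ n) (hq : 4 ≤ Fintype.card F) {W : Matrix (Fin n) (Fin n) F}
    (hW : IsAlt W) (hW0 : W ≠ 0) (hw : ¬ IsWedge W) :
    2 * ((Fintype.card F ^ n - 1) * (Fintype.card F ^ (n - 1) - 1)) ≤
      Fintype.card F ^ 2 * (sqOrbit W).card := by
  classical
  obtain ⟨m, rfl⟩ : ∃ m, n = m + 1 := ⟨n - 1, by omega⟩
  rw [Nat.add_sub_cancel]
  set q := Fintype.card F with hqdef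
  set O := sqOrbit W
  set e0 : Fin (m + 1) → F := Pi.single 0 1 with he0
  have he0ne : e0 ≠ 0 := fun h => one_ne_zero (show (1 : F) = 0 by simpa [he0] using congrFun h 0)
  have hcol : ∀ (M : Matrix (Fin (m + 1)) (Fin (m + 1)) F) i, (M *ᵥ e0) i = M i 0 := fun M i => by
    rw [he0, Matrix.mulVec_single_one]; rfl
  have halt : ∀ M ∈ O, IsAlt M := fun M hM => by
    obtain ⟨g, -, -, rfl⟩ := mem_sqOrbit.1 hM
    exact hW.congr g
  have hnw : ∀ M ∈ O, ¬ IsWedge M := fun M hM hMw => by
    obtain ⟨g, hg, -, rfl⟩ := mem_sqOrbit.1 hM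
    refine hw ?_
    have hu : IsUnit g.det := hg.isUnit
    have hu' : IsUnit gᵀ.det := by rw [Matrix.det_transpose]; exact hu
    have := hMw.congr (g := g⁻¹) (by rw [Matrix.det_nonsing_inv, Ring.inverse_eq_inv']; exact inv_ne_zero hg)
    rw [Matrix.transpose_nonsing_inv] at this
    convert this using 1
    simp only [← Matrix.mul_assoc, Matrix.nonsing_inv_mul _ hu, Matrix.one_mul]
    rw [Matrix.mul_assoc, Matrix.mul_nonsing_inv _ hu', Matrix.mul_one]
  set T := O.filter fun M => M *ᵥ e0 ≠ 0 with hT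
  obtain ⟨a, ha⟩ : ∃ a : F, a ≠ 0 ∧ a ^ 2 ≠ 1 := by
    by_contra hc
    push Not at hc
    have hsub : (Finset.univ : Finset F) ⊆ {0, 1, -1} := fun x _ => by
      by_cases hx : x = 0
      · simp [hx]
      · rcases sq_eq_one_iff.1 (hc x hx) with h | h <;> simp [h]
    have := (Finset.card_le_card hsub).trans Finset.card_le_three
    rw [Finset.card_univ] at this
    omega
  set d := a ^ 2 - 1 with hd
  have hd0 : d ≠ 0 := sub_ne_zero.2 ha.2
  -- two orbit elements with prescribed first column and different classes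
  have hfam : ∀ v : Fin m → F, ∃ M₁ M₂ : Matrix (Fin (m + 1)) (Fin (m + 1)) F, v ≠ 0 → M₁ ∈ O ∧ M₂ ∈ O ∧
      (∀ i, M₁ i.succ 0 = v i) ∧ (∀ i, M₂ i.succ 0 = v i) ∧
      ∀ u : Fin m → F, M₂.submatrix Fin.succ Fin.succ - M₁.submatrix Fin.succ Fin.succ ≠ wedge v u := by
    intro v
    by_cases hv : v = 0
    · exact ⟨0, 0, fun h => absurd hv h⟩
    obtain ⟨M₀, hM₀, hM₀e⟩ : ∃ M ∈ O, M *ᵥ e0 ≠ 0 := by
      obtain ⟨j, hj⟩ : ∃ j, W *ᵥ Pi.single j 1 ≠ 0 := by
        by_contra hc
        push Not at hc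
        exact hW0 (Matrix.ext_of_mulVec_single fun j => by rw [hc j, Matrix.zero_mulVec])
      have hjne : (Pi.single j 1 : Fin (m + 1) → F) ≠ 0 := fun h => hj (by rw [h, Matrix.mulVec_zero])
      obtain ⟨G, hG, hGe⟩ := exists_det_one_mulVec (by omega) he0ne hjne
      have hu' : IsUnit Gᵀ.det := by rw [Matrix.det_transpose, hG]; exact isUnit_one
      refine ⟨Gᵀ * W * Gᵀᵀ, mem_sqOrbit.2 ⟨Gᵀ, hu'.ne_zero, by simp [hG], rfl⟩, fun h => hj ?_⟩
      rw [Matrix.transpose_transpose, ← Matrix.mulVec_mulVec, ← Matrix.mulVec_mulVec, hGe] at h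
      have := congrArg ((Gᵀ)⁻¹ *ᵥ ·) h
      simpa [Matrix.mulVec_mulVec, ← Matrix.mul_assoc, Matrix.nonsing_inv_mul _ hu'] using this
    set b : Fin m → F := fun i => M₀ i.succ 0 with hb
    have hb0 : b ≠ 0 := fun h => hM₀e <| funext fun i => by
      rw [hcol]
      refine Fin.cases ?_ (fun i => ?_) i
      · exact (halt M₀ hM₀).1 0
      · exact congrFun h i
    obtain ⟨G, hG, hGv⟩ := exists_det_one_mulVec (by omega) hb0 hv
    set M₁ := blockLow 0 G * M₀ * (blockLow 0 G)ᵀ
    have hM₁ : M₁ ∈ O := sqOrbit_trans hM₀ (by simp [det_blockLow, hG]) (by simp [det_blockLow, hG])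
    have hcol₁ : ∀ i, M₁ i.succ 0 = v i := fun i => by
      simp only [M₁]; rw [blockLow_col, ← hb, hGv]; simp
    set B := M₁.submatrix Fin.succ Fin.succ with hB
    have hBalt : IsAlt B := ⟨fun i => (halt M₁ hM₁).1 _, fun i j => (halt M₁ hM₁).2 _ _⟩
    have hnowedge : ∀ u : Fin m → F, B ≠ wedge v u := by
      intro u hu
      refine hnw M₁ hM₁ ⟨fun h0 => hv (funext fun i => ?_), Fin.cons 0 v, Fin.cons 1 u, ?_⟩
      · rw [← hcol₁ i, h0]; rfl
      · ext i j
        refine Fin.cases ?_ (fun i => ?_) i <;> refine Fin.cases ?_ (fun j => ?_) j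
        · simp [wedge_apply, (halt M₁ hM₁).1 0]
        · simp [wedge_apply, (halt M₁ hM₁).2 j.succ 0, hcol₁]
        · simp [wedge_apply, hcol₁]
        · have := congrFun (congrFun hu i) j
          simp [hB, wedge_apply] at this ⊢
          exact this.symm
    obtain ⟨f, hfv, hfz⟩ := exists_transverse hBalt hv hnowedge
    set z := B *ᵥ f with hz
    obtain ⟨k, hk⟩ : ∃ k, f k ≠ 0 := by
      by_contra hc
      push Not at hc
      exact hfz 0 (by rw [hz, show f = 0 from funext hc]; simp)
    set x : Fin m → F := Pi.single k (f k)⁻¹ with hx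
    have hfx : f ⬝ᵥ x = 1 := by rw [hx, dotProduct_single, mul_inv_cancel₀ hk]
    set G' : Matrix (Fin m) (Fin m) F := 1 + d • vecMulVec x f with hG'
    have hG'det : G'.det = a ^ 2 := by
      rw [hG', ← Matrix.smul_vecMulVec, Matrix.vecMulVec_eq Unit, Matrix.det_one_add_replicateCol_mul_replicateRow,
        dotProduct_smul, hfx, hd]
      simp
    have hG'v : G' *ᵥ v = v := by
      simp [hG', Matrix.add_mulVec, Matrix.smul_mulVec, Matrix.vecMulVec_mulVec, hfv]
    set M₂ := blockLow 0 G' * M₁ * (blockLow 0 G')ᵀ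
    have hM₂ : M₂ ∈ O := sqOrbit_trans hM₁ (by rw [det_blockLow, hG'det]; exact pow_ne_zero _ ha.1)
      (by rw [det_blockLow, hG'det]; exact IsSquare.sq a)
    have hcol₂ : ∀ i, M₂ i.succ 0 = v i := fun i => by
      simp only [M₂]; rw [blockLow_col, show (fun j => M₁ j.succ 0) = v from funext hcol₁, hG'v]; simp
    refine ⟨M₁, M₂, fun _ => ⟨hM₁, hM₂, hcol₁, hcol₂, fun u hu => ?_⟩⟩
    have e : M₂.submatrix Fin.succ Fin.succ - B = d • wedge z x := by
      simp only [M₂]; rw [blockLow_block_zero, ← hB, hG']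
      have e1 : vecMulVec x f * B = -vecMulVec x z := by
        have hvm : f ᵥ* B = -z := by
          funext j
          rw [hz, Pi.neg_apply]
          simp only [Matrix.vecMul, Matrix.mulVec, dotProduct, ← Finset.sum_neg_distrib]
          exact Finset.sum_congr rfl fun i _ => by rw [hBalt.2 j i]; ring
        rw [Matrix.vecMulVec_mul, hvm]
        ext i j; simp [vecMulVec_apply]
      have e2 : B * vecMulVec f x = vecMulVec z x := Matrix.mul_vecMulVec _ _ _
      have e3 : vecMulVec x z * vecMulVec f x = 0 := by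
        rw [Matrix.vecMulVec_mul_vecMulVec, dotProduct_comm, hz, dot_alt_self hBalt,
          zero_smul, Matrix.vecMulVec_zero]
      simp only [Matrix.transpose_add, Matrix.transpose_one, Matrix.transpose_smul, Matrix.transpose_vecMulVec,
        Matrix.add_mul, Matrix.mul_add, Matrix.one_mul, Matrix.mul_one, Matrix.smul_mul, Matrix.mul_smul,
        smul_smul, e2, e1, Matrix.neg_mul, e3]
      rw [wedge]
      module
    rw [e] at hu
    have h1 := congrArg (fun N => N *ᵥ f) hu
    simp only [wedge, Matrix.smul_mulVec, Matrix.sub_mulVec, Matrix.vecMulVec_mulVec, op_smul_eq_smul] at h1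
    rw [dotProduct_comm x f, hfx, dotProduct_comm z f, hz, dot_alt_self hBalt, ← hz,
      dotProduct_comm v f, hfv] at h1
    simp only [one_smul, zero_smul, sub_zero] at h1
    refine hfz (d⁻¹ * (u ⬝ᵥ f)) ?_
    rw [← smul_smul, ← h1, inv_smul_smul₀ hd0]
  choose M₁ M₂ hM using hfam
  set S := (((Finset.univ : Finset (Fin m → F)).erase 0) ×ˢ (Finset.univ : Finset Bool)) ×ˢ
    (Finset.univ : Finset (Fin m → F))
  set Φ : ((Fin m → F) × Bool) × (Fin m → F) → Matrix (Fin (m + 1)) (Fin (m + 1)) F :=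
    fun p => blockLow p.2 1 * (if p.1.2 then M₂ p.1.1 else M₁ p.1.1) * (blockLow p.2 1)ᵀ
  have hbase : ∀ p ∈ S, (if p.1.2 then M₂ p.1.1 else M₁ p.1.1) ∈ O ∧
      (∀ i, (if p.1.2 then M₂ p.1.1 else M₁ p.1.1) i.succ 0 = p.1.1 i) ∧ p.1.1 ≠ 0 := by
    intro p hp
    have hv := Finset.ne_of_mem_erase (Finset.mem_product.1 (Finset.mem_product.1 hp).1).1
    obtain ⟨h1, h2, h3, h4, -⟩ := hM p.1.1 hv
    cases p.1.2 <;> exact ⟨by assumption, by assumption, hv⟩
  have hΦcol : ∀ p ∈ S, ∀ i, Φ p i.succ 0 = p.1.1 i := by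
    intro p hp i
    obtain ⟨hO, hc, -⟩ := hbase p hp
    simp only [Φ, blockLow_col, (halt _ hO).1 0, mul_zero, zero_add, Matrix.one_mulVec, hc]
  have hsub : S.image Φ ⊆ T := by
    intro M hM'
    obtain ⟨p, hp, rfl⟩ := Finset.mem_image.1 hM'
    obtain ⟨hO, -, hv⟩ := hbase p hp
    refine Finset.mem_filter.2 ⟨sqOrbit_trans hO (by simp [det_blockLow]) (by simp [det_blockLow]), fun h => hv ?_⟩
    funext i
    have := congrFun h i.succ
    rw [hcol, hΦcol p hp] at this
    exact this
  have hfib : ∀ M ∈ S.image Φ, (S.filter fun p => Φ p = M).card ≤ q := by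
    intro M hM'
    obtain ⟨p₀, hp₀, rfl⟩ := Finset.mem_image.1 hM'
    obtain ⟨-, -, hv⟩ := hbase p₀ hp₀
    set v := p₀.1.1
    obtain ⟨k, hk⟩ := Function.ne_iff.1 hv
    refine Finset.card_le_card_of_injOn (t := (Finset.univ : Finset F)) (fun p => p.2 k)
      (fun p _ => Finset.mem_univ _) ?_
    intro p hp p' hp' (hpk : p.2 k = p'.2 k)
    obtain ⟨hpS, hpΦ⟩ := Finset.mem_filter.1 hp
    obtain ⟨hpS', hpΦ'⟩ := Finset.mem_filter.1 hp'
    have h1 : p.1.1 = v := funext fun i => by rw [← hΦcol p hpS, hpΦ, hΦcol p₀ hp₀]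
    have h2 : p'.1.1 = v := funext fun i => by rw [← hΦcol p' hpS', hpΦ', hΦcol p₀ hp₀]
    obtain ⟨hO, hc, -⟩ := hbase p hpS
    obtain ⟨hO', hc', -⟩ := hbase p' hpS'
    have he := congrArg (fun N => N.submatrix Fin.succ Fin.succ) (hpΦ.trans hpΦ'.symm)
    simp only [Φ] at he
    rw [blockLow_block_one _ (halt _ hO), blockLow_block_one _ (halt _ hO'),
      show (fun i => _) = p.1.1 from funext hc, show (fun i => _) = p'.1.1 from funext hc', h1, h2] at he
    have hdiff := (hM v hv).2.2.2.2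
    have hwsub : wedge v p.2 - wedge v p'.2 = wedge v (p.2 - p'.2) := by
      ext i j; simp [wedge_apply]; ring
    have hb : p.1.2 = p'.1.2 := by
      by_contra hne
      rcases Bool.eq_false_or_eq_true p.1.2 with hb | hb <;>
        rcases Bool.eq_false_or_eq_true p'.1.2 with hb' | hb' <;> rw [hb, hb'] at hne <;>
        simp only [hb, hb', if_true, Bool.false_eq_true, if_false] at he
      · exact hne rfl
      · refine hdiff (p'.2 - p.2) ?_
        ext i j
        have := congrFun (congrFun he i) j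
        simp [wedge_apply] at this ⊢
        linear_combination this
      · refine hdiff (p.2 - p'.2) ?_
        ext i j
        have := congrFun (congrFun he i) j
        simp [wedge_apply] at this ⊢
        linear_combination -this
      · exact hne rfl
    rw [hb, add_right_inj] at he
    refine Prod.ext (Prod.ext (h1.trans h2.symm) hb) (funext fun i => ?_)
    have := congrFun (congrFun he k) i
    simp only [wedge_apply, hpk] at this
    exact mul_left_cancel₀ hk (sub_left_inj.1 this)
  have h := (Finset.card_le_mul_card_image S q hfib).trans (Nat.mul_le_mul_left _ (Finset.card_le_card hsub))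
  rw [Finset.card_product, Finset.card_product, Finset.card_erase_of_mem (Finset.mem_univ _), Finset.card_univ,
    Finset.card_univ, Fintype.card_fun, Fintype.card_fin, Fintype.card_bool, ← hqdef] at h
  -- every nonzero vector is moved by as many elements as the first basis vector
  have hle : ∀ x : Fin (m + 1) → F, x ≠ 0 → T.card ≤ (O.filter fun M => M *ᵥ x ≠ 0).card := by
    intro x hx
    obtain ⟨H, hH, hHx⟩ := exists_det_one_mulVec (by omega) hx he0ne
    have hu : IsUnit H.det := by rw [hH]; exact isUnit_one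
    have hu' : IsUnit Hᵀ.det := by rw [Matrix.det_transpose]; exact hu
    refine Finset.card_le_card_of_injOn (fun M => Hᵀ * M * Hᵀᵀ) (fun M hM' => ?_) ?_
    · obtain ⟨hMO, hMe⟩ := Finset.mem_filter.1 hM'
      refine Finset.mem_filter.2 ⟨sqOrbit_trans hMO hu'.ne_zero (by simp [hH]), fun h => hMe ?_⟩
      rw [Matrix.transpose_transpose, ← Matrix.mulVec_mulVec, ← Matrix.mulVec_mulVec, hHx] at h
      have := congrArg ((Hᵀ)⁻¹ *ᵥ ·) h
      simpa [Matrix.mulVec_mulVec, ← Matrix.mul_assoc, Matrix.nonsing_inv_mul _ hu'] using this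
    · intro M _ M' _ hMM
      simp only [Matrix.transpose_transpose] at hMM
      have := congrArg (fun N => (Hᵀ)⁻¹ * N * H⁻¹) hMM
      simpa [← Matrix.mul_assoc, Matrix.nonsing_inv_mul _ hu', Matrix.mul_nonsing_inv_cancel_right _ _ hu]
        using this
  have hsum : (q ^ (m + 1) - 1) * T.card ≤ O.card * q ^ (m + 1) := by
    have h1 := Finset.card_nsmul_le_sum ((Finset.univ : Finset (Fin (m + 1) → F)).erase 0) _ T.card
      (fun x hx => hle x (Finset.ne_of_mem_erase hx))
    rw [Finset.card_erase_of_mem (Finset.mem_univ _), Finset.card_univ, Fintype.card_fun, Fintype.card_fin,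
      smul_eq_mul, ← hqdef] at h1
    refine h1.trans ((Finset.sum_le_sum_of_subset (Finset.erase_subset _ _)).trans ?_)
    refine (Finset.sum_card_bipartiteAbove_eq_sum_card_bipartiteBelow
      (fun (M : Matrix (Fin (m + 1)) (Fin (m + 1)) F) (x : Fin (m + 1) → F) => M *ᵥ x ≠ 0)
      (s := O) (t := Finset.univ)).symm.le.trans ?_
    refine (Finset.sum_le_card_nsmul _ _ (q ^ (m + 1)) fun M _ => (Finset.card_le_univ _).trans ?_).trans le_rfl
    rw [Fintype.card_fun, Fintype.card_fin]
  have hqm : 0 < q ^ m := pow_pos (by omega) _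
  refine Nat.le_of_mul_le_mul_right ?_ hqm
  calc 2 * ((q ^ (m + 1) - 1) * (q ^ m - 1)) * q ^ m = (q ^ (m + 1) - 1) * ((q ^ m - 1) * 2 * q ^ m) := by ring
    _ ≤ (q ^ (m + 1) - 1) * (q * T.card) := Nat.mul_le_mul_left _ h
    _ = q * ((q ^ (m + 1) - 1) * T.card) := by ring
    _ ≤ q * (O.card * q ^ (m + 1)) := Nat.mul_le_mul_left _ hsum
    _ = q ^ 2 * O.card * q ^ m := by ring

end CfsgLib.OrthPlusDeg
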