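import Cfsg.Agent.Classical.Orth.LeviOmega
import Cfsg.Agent.Classical.Orth.CentreOmega
import Cfsg.Agent.LinAlg.Witt.Mat
import Cfsg.Agent.OrthPlusDeg.AltOrbit

/-!
The Siegel radical, Levi elements and root elements of `Omega^+`.
-/

set_option autoImplicit false
set_option linter.unusedSectionVars false

noncomputable section

namespace CfsgLib.OrthPlusDeg

open Cfsg.Geo CfsgLib.OrthGeo Matrix
open scoped MatrixGroups commutatorElement

variable {F : Type*} [Field F] {n : ℕ}

/-- The hyperbolic form. -/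
abbrev qPlus (n : ℕ) (F : Type*) [Field F] : (Fin n ⊕ Fin n → F) → F := Cfsg.quadFormPlus n F

/-- The group `Omega^+`. -/
abbrev OmPlus (n : ℕ) (F : Type*) [Field F] : Subgroup (Cfsg.isometryGroup F (qPlus n F)) :=
  Cfsg.Omega F (qPlus n F)

theorem nondeg_qPlus (n : ℕ) : IsNondegenerateQuadraticForm (qPlus n F) :=
  CfsgLib.Classical.Orth.isNondegQF_quadFormPlus n

/-- The polar form of the hyperbolic form. -/
theorem bform_qPlus (u v : Fin n ⊕ Fin n → F) :
    bform (nondeg_qPlus n) u v =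
      (u ∘ Sum.inl) ⬝ᵥ (v ∘ Sum.inr) + (v ∘ Sum.inl) ⬝ᵥ (u ∘ Sum.inr) := by
  rw [bform_apply]; exact CfsgLib.Char2Forms.polar_plus n u v

/-- The alternating matrix of a parameter. -/
def altOf (v : Fin n × Fin n → F) : Matrix (Fin n) (Fin n) F :=
  (Matrix.of fun i j => v (i, j)) - (Matrix.of fun i j => v (i, j))ᵀ

/-- A matrix as a parameter. -/
def flat2 (M : Matrix (Fin n) (Fin n) F) : Fin n × Fin n → F := fun p => M p.1 p.2

theorem flat2_injective : Function.Injective (flat2 (F := F) (n := n)) := fun _ _ h =>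
  Matrix.ext fun i j => congrFun h (i, j)

theorem altOf_apply (v : Fin n × Fin n → F) (i j : Fin n) : altOf v i j = v (i, j) - v (j, i) := rfl

theorem isAlt_altOf (v : Fin n × Fin n → F) : IsAlt (altOf v) :=
  ⟨fun i => sub_self _, fun i j => (neg_sub _ _).symm⟩

theorem altOf_add (u v : Fin n × Fin n → F) : altOf (u + v) = altOf u + altOf v := by
  ext i j; simp [altOf_apply]; ring

theorem altOf_smul (c : F) (v : Fin n × Fin n → F) : altOf (c • v) = c • altOf v := by
  ext i j; simp [altOf_apply]; ring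

/-- A unipotent element of the Siegel radical, as an isometry. -/
def siegelIso (v : Fin n × Fin n → F) : Cfsg.isometryGroup F (qPlus n F) :=
  ⟨⟨fromBlocks 1 (altOf v) 0 1, fromBlocks 1 (-altOf v) 0 1,
    by simp [fromBlocks_multiply], by simp [fromBlocks_multiply]⟩,
   mem_isometryGroup.2 fun x => by
    simp only [qPlus, CfsgLib.Char2Forms.quadFormPlus_eq, fromBlocks_mulVec, Sum.elim_comp_inl,
      Sum.elim_comp_inr, one_mulVec, zero_mulVec, zero_add, add_dotProduct]
    rw [dotProduct_comm (altOf v *ᵥ _), dot_alt_self (isAlt_altOf v), add_zero]⟩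

theorem coe_siegelIso (v : Fin n × Fin n → F) :
    (((siegelIso v : Cfsg.isometryGroup F (qPlus n F)) : GL (Fin n ⊕ Fin n) F) :
      Matrix (Fin n ⊕ Fin n) (Fin n ⊕ Fin n) F) = fromBlocks 1 (altOf v) 0 1 := rfl

theorem siegelIso_add (u v : Fin n × Fin n → F) : siegelIso (u + v) = siegelIso u * siegelIso v := by
  apply Subtype.ext; apply Units.ext
  rw [Subgroup.coe_mul, Units.val_mul, coe_siegelIso, coe_siegelIso, coe_siegelIso]
  simp [fromBlocks_multiply, altOf_add, add_comm]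

theorem siegelIso_congr {u v : Fin n × Fin n → F} (h : altOf u = altOf v) : siegelIso u = siegelIso v := by
  apply Subtype.ext; apply Units.ext
  rw [coe_siegelIso, coe_siegelIso, h]

/-- Conjugation by a Levi element. -/
theorem levi_siegelIso (g : GL (Fin n) F) (v : Fin n × Fin n → F) :
    CfsgLib.Char2Forms.levi g * siegelIso v =
      siegelIso (flat2 ((g : Matrix (Fin n) (Fin n) F) * (Matrix.of fun i j => v (i, j)) *
        (g : Matrix (Fin n) (Fin n) F)ᵀ)) * CfsgLib.Char2Forms.levi g := by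
  apply Subtype.ext; apply Units.ext
  have hA : altOf (flat2 ((g : Matrix (Fin n) (Fin n) F) * (Matrix.of fun i j => v (i, j)) *
      (g : Matrix (Fin n) (Fin n) F)ᵀ)) = (g : Matrix (Fin n) (Fin n) F) * altOf v * (g : Matrix (Fin n) (Fin n) F)ᵀ := by
    set V : Matrix (Fin n) (Fin n) F := Matrix.of fun i j => v (i, j)
    change (g : Matrix (Fin n) (Fin n) F) * V * (g : Matrix (Fin n) (Fin n) F)ᵀ -
      ((g : Matrix (Fin n) (Fin n) F) * V * (g : Matrix (Fin n) (Fin n) F)ᵀ)ᵀ = _ * (V - Vᵀ) * _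
    simp [Matrix.mul_sub, Matrix.sub_mul, Matrix.transpose_mul, Matrix.mul_assoc]
  simp only [Subgroup.coe_mul, Units.val_mul, coe_siegelIso, hA]
  change fromBlocks _ 0 0 _ * _ = _ * fromBlocks _ 0 0 _
  have h1 : (g : Matrix (Fin n) (Fin n) F)ᵀ * ((g⁻¹ : GL (Fin n) F) : Matrix (Fin n) (Fin n) F)ᵀ = 1 := by
    rw [← Matrix.transpose_mul, ← Units.val_mul, inv_mul_cancel, Units.val_one, Matrix.transpose_one]
  simp [fromBlocks_multiply, Matrix.mul_assoc, h1, -Matrix.coe_units_inv]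

variable [Fintype F] [DecidableEq F]

theorem exists_scalar_sq (hq : 4 ≤ Fintype.card F) : ∃ c : F, c ≠ 0 ∧ c ^ 2 ≠ 1 := by
  by_contra hc
  push Not at hc
  have hsub : (Finset.univ : Finset F) ⊆ {0, 1, -1} := fun x _ => by
    by_cases hx : x = 0
    · simp [hx]
    · rcases sq_eq_one_iff.1 (hc x hx) with h | h <;> simp [h]
  have := (Finset.card_le_card hsub).trans Finset.card_le_three
  rw [Finset.card_univ] at this
  omega

/-- The Siegel radical lies in `Omega`. -/
theorem siegelIso_mem (hq : 4 ≤ Fintype.card F) (v : Fin n × Fin n → F) :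
    siegelIso v ∈ OmPlus n F := by
  obtain ⟨c, hc, hc2⟩ := exists_scalar_sq hq
  have hd : c ^ 2 - 1 ≠ 0 := sub_ne_zero.2 hc2
  let g : GL (Fin n) F := GeneralLinearGroup.mkOfDetNeZero (c • 1) (by simp [hc])
  set w := (c ^ 2 - 1)⁻¹ • v
  have h := levi_siegelIso g w
  have hw : flat2 ((g : Matrix (Fin n) (Fin n) F) * (Matrix.of fun i j => w (i, j)) *
      (g : Matrix (Fin n) (Fin n) F)ᵀ) = w + v := by
    funext p
    simp [g, flat2, w]
    field_simp
    ring
  rw [hw, add_comm, siegelIso_add] at h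
  have : siegelIso v = ⁅CfsgLib.Char2Forms.levi g, siegelIso w⁆ := by
    rw [commutatorElement_def, h]
    group
  rw [this]
  exact Subgroup.commutator_mem_commutator (Subgroup.mem_top _) (Subgroup.mem_top _)

/-- The Siegel radical inside `Omega`. -/
def siegelOm (hq : 4 ≤ Fintype.card F) (v : Fin n × Fin n → F) : OmPlus n F :=
  ⟨siegelIso v, siegelIso_mem hq v⟩

theorem siegelOm_add (hq : 4 ≤ Fintype.card F) (u v : Fin n × Fin n → F) :
    siegelOm hq (u + v) = siegelOm hq u * siegelOm hq v := Subtype.ext (siegelIso_add u v)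

theorem siegelOm_congr (hq : 4 ≤ Fintype.card F) {u v : Fin n × Fin n → F} (h : altOf u = altOf v) :
    siegelOm hq u = siegelOm hq v := Subtype.ext (siegelIso_congr h)

theorem siegelOm_zero (hq : 4 ≤ Fintype.card F) : siegelOm hq (0 : Fin n × Fin n → F) = 1 := by
  have := siegelOm_add hq (0 : Fin n × Fin n → F) 0
  rwa [add_zero, left_eq_mul] at this

theorem exc_plus (hn : 4 ≤ n) : ¬ (Nat.card F = 2 ∧ Fintype.card (Fin n ⊕ Fin n) = 4) := fun h => by
  have := h.2
  simp at this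
  omega

/-- The Levi elements inside `Omega`. -/
def leviOm (hn : 4 ≤ n) (g : GL (Fin n) F) (hg : IsSquare (g : Matrix (Fin n) (Fin n) F).det) :
    OmPlus n F :=
  ⟨CfsgLib.Char2Forms.levi g, (CfsgLib.Classical.Orth.levi_mem_omega_iff (exc_plus hn) g).2 hg⟩

theorem leviOm_siegelOm (hn : 4 ≤ n) (hq : 4 ≤ Fintype.card F) (g : GL (Fin n) F)
    (hg : IsSquare (g : Matrix (Fin n) (Fin n) F).det) (v : Fin n × Fin n → F) :
    leviOm hn g hg * siegelOm hq v =
      siegelOm hq (flat2 ((g : Matrix (Fin n) (Fin n) F) * (Matrix.of fun i j => v (i, j)) *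
        (g : Matrix (Fin n) (Fin n) F)ᵀ)) * leviOm hn g hg :=
  Subtype.ext (levi_siegelIso g v)

/-- `SL_n` inside `Omega`. -/
def slOm (hn : 4 ≤ n) : Matrix.SpecialLinearGroup (Fin n) F →* OmPlus n F where
  toFun g := leviOm hn (Matrix.SpecialLinearGroup.toGL g) (by simp)
  map_one' := Subtype.ext (by simp [leviOm])
  map_mul' g h := Subtype.ext (by simp [leviOm])

/-- A pair spanning a totally singular line. -/
def IsPair (p : (Fin n ⊕ Fin n → F) × (Fin n ⊕ Fin n → F)) : Prop :=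
  qPlus n F p.1 = 0 ∧ qPlus n F p.2 = 0 ∧ bform (nondeg_qPlus n) p.1 p.2 = 0 ∧ p.1 ≠ 0 ∧
    ∀ c : F, c • p.1 ≠ p.2

open scoped Classical in
/-- The root element of a pair. -/
def rootOm (hn : 4 ≤ n) (p : (Fin n ⊕ Fin n → F) × (Fin n ⊕ Fin n → F)) : OmPlus n F :=
  if h : qPlus n F p.1 = 0 ∧ bform (nondeg_qPlus n) p.1 p.2 = 0 then
    ⟨⟨eichler (nondeg_qPlus n) h.1 h.2, eichler_mem_isometryGroup (nondeg_qPlus n) h.1 h.2⟩, by
      have := eichler_mem_omega (nondeg_qPlus n) (by simp; omega) h.1 h.2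
      obtain ⟨g, hg, hge⟩ := this
      have e : (⟨eichler (nondeg_qPlus n) h.1 h.2, eichler_mem_isometryGroup (nondeg_qPlus n) h.1 h.2⟩ :
          Cfsg.isometryGroup F (qPlus n F)) = g := Subtype.ext hge.symm
      rw [e]; exact hg⟩
  else 1

theorem coe_rootOm (hn : 4 ≤ n) {p : (Fin n ⊕ Fin n → F) × (Fin n ⊕ Fin n → F)}
    (h1 : qPlus n F p.1 = 0) (h2 : bform (nondeg_qPlus n) p.1 p.2 = 0) :
    ((rootOm hn p : Cfsg.isometryGroup F (qPlus n F)) : GL (Fin n ⊕ Fin n) F) =
      eichler (nondeg_qPlus n) h1 h2 := by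
  rw [rootOm, dif_pos ⟨h1, h2⟩]

/-- An isometry acting on pairs. -/
def mapPair (g : Cfsg.isometryGroup F (qPlus n F)) (p : (Fin n ⊕ Fin n → F) × (Fin n ⊕ Fin n → F)) :
    (Fin n ⊕ Fin n → F) × (Fin n ⊕ Fin n → F) :=
  (((g : GL (Fin n ⊕ Fin n) F) : Matrix _ _ F) *ᵥ p.1, ((g : GL (Fin n ⊕ Fin n) F) : Matrix _ _ F) *ᵥ p.2)

theorem mapPair_mul (g h : Cfsg.isometryGroup F (qPlus n F))
    (p : (Fin n ⊕ Fin n → F) × (Fin n ⊕ Fin n → F)) : mapPair (g * h) p = mapPair g (mapPair h p) := by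
  simp [mapPair, Matrix.mulVec_mulVec]

theorem mapPair_one (p : (Fin n ⊕ Fin n → F) × (Fin n ⊕ Fin n → F)) : mapPair 1 p = p := by
  simp [mapPair]

theorem isPair_mapPair (g : Cfsg.isometryGroup F (qPlus n F))
    {p : (Fin n ⊕ Fin n → F) × (Fin n ⊕ Fin n → F)} (h : IsPair p) : IsPair (mapPair g p) := by
  obtain ⟨h1, h2, h3, h4, h5⟩ := h
  refine ⟨?_, ?_, ?_, fun hz => h4 ?_, fun c hc => h5 c ?_⟩
  · exact (mem_isometryGroup.1 g.2 _).trans h1
  · exact (mem_isometryGroup.1 g.2 _).trans h2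
  · exact (isometry_b (nondeg_qPlus n) g.2 _ _).trans h3
  · have := congrArg (fun x => ((g : GL (Fin n ⊕ Fin n) F)⁻¹ : GL (Fin n ⊕ Fin n) F).1 *ᵥ x) hz
    simpa only [mapPair, inv_mulVec_cancel, Matrix.mulVec_zero] using this
  · have := congrArg (fun x => ((g : GL (Fin n ⊕ Fin n) F)⁻¹ : GL (Fin n ⊕ Fin n) F).1 *ᵥ x) hc
    simpa only [mapPair, ← Matrix.mulVec_smul, inv_mulVec_cancel] using this

/-- Isometries move root elements to root elements. -/
theorem conj_rootOm (hn : 4 ≤ n) (g : Cfsg.isometryGroup F (qPlus n F))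
    {p : (Fin n ⊕ Fin n → F) × (Fin n ⊕ Fin n → F)} (h : IsPair p) :
    g * (rootOm hn p : Cfsg.isometryGroup F (qPlus n F)) * g⁻¹ = rootOm hn (mapPair g p) := by
  have h' := isPair_mapPair g h
  apply Subtype.ext
  rw [Subgroup.coe_mul, Subgroup.coe_mul, Subgroup.coe_inv, coe_rootOm hn h.1 h.2.2.1,
    coe_rootOm hn h'.1 h'.2.2.1]
  exact conj_eichler (nondeg_qPlus n) g.2 _ _ _ _ rfl rfl

/-- The isometry group is transitive on pairs. -/
theorem exists_mapPair {p p' : (Fin n ⊕ Fin n → F) × (Fin n ⊕ Fin n → F)} (hp : IsPair p)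
    (hp' : IsPair p') : ∃ g : Cfsg.isometryGroup F (qPlus n F), mapPair g p = p' := by
  have hlin : ∀ {q : (Fin n ⊕ Fin n → F) × (Fin n ⊕ Fin n → F)}, IsPair q →
      LinearIndependent F ![q.1, q.2] := fun {q} hq =>
    (LinearIndependent.pair_iff' hq.2.2.2.1).2 hq.2.2.2.2
  obtain ⟨g, hg, hgi⟩ := CfsgLib.LinAlg.Witt.exists_quadFun_family (nondeg_qPlus n) (hlin hp) (hlin hp')
    (fun i => by fin_cases i <;> simp [hp.1, hp.2.1, hp'.1, hp'.2.1]) (fun i j => by
      have hs := fun {q : (Fin n ⊕ Fin n → F) × (Fin n ⊕ Fin n → F)} (hq : IsPair q) =>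
        And.intro hq.2.2.1 ((b_symm (nondeg_qPlus n) q.2 q.1).trans hq.2.2.1)
      simp only [← bform_apply (nondeg_qPlus n)]
      fin_cases i <;> fin_cases j <;>
        simp [hs hp, hs hp', b_self (nondeg_qPlus n), hp.1, hp.2.1, hp'.1, hp'.2.1, -bform_apply])
  exact ⟨⟨g, hg⟩, Prod.ext (hgi 0) (hgi 1)⟩

/-- Coordinate pairs. -/
theorem isPair_single {a b : Fin n ⊕ Fin n} (hab : a ≠ b) (hb : b ≠ Sum.swap a) :
    IsPair ((Pi.single a 1 : Fin n ⊕ Fin n → F), Pi.single b 1) := by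
  have hQ : ∀ c : Fin n ⊕ Fin n, qPlus n F (Pi.single c 1) = 0 := fun c => by
    rcases c with c | c <;> simp [qPlus, CfsgLib.Char2Forms.quadFormPlus_eq, dotProduct]
  refine ⟨hQ a, hQ b, ?_, fun h => ?_, fun c h => ?_⟩
  · rw [bform_qPlus]
    rcases a with a | a <;> rcases b with b | b <;>
      simp [dotProduct, Pi.single_apply, Sum.swap] at hab hb ⊢ <;> simp [hb, Ne.symm hb]
  · simpa using congrFun h a
  · have := congrFun h b
    simp [Pi.single_apply, hab.symm] at this

/-- A root element of the radical. -/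
theorem rootOm_inl (hn : 4 ≤ n) (hq : 4 ≤ Fintype.card F) {a b : Fin n} (hab : a ≠ b) :
    rootOm hn ((Pi.single (Sum.inl a) 1 : Fin n ⊕ Fin n → F), Pi.single (Sum.inl b) 1) =
      siegelOm hq (Pi.single (a, b) 1) := by
  have h := isPair_single (F := F) (a := Sum.inl a) (b := Sum.inl b) (by simp [hab]) (by simp)
  apply Subtype.ext; apply Subtype.ext; apply gl_ext
  intro x
  rw [coe_rootOm hn h.1 h.2.2.1, eichler_mulVec, h.2.1, bform_qPlus, bform_qPlus]
  change _ = fromBlocks 1 (altOf (Pi.single (a, b) 1)) 0 1 *ᵥ x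
  rw [fromBlocks_mulVec]
  funext i
  rcases i with i | i
  · simp [dotProduct, Matrix.mulVec, altOf_apply, Pi.single_apply, Matrix.one_apply, sub_mul,
      Finset.sum_sub_distrib]
    by_cases h1 : i = a <;> by_cases h2 : i = b <;> simp [h1, h2, hab, hab.symm] <;> ring
  · simp [dotProduct, Matrix.mulVec, Pi.single_apply, Matrix.one_apply]

/-- A root element of the Levi subgroup. -/
theorem rootOm_inr (hn : 4 ≤ n) {a b : Fin n} (hab : a ≠ b) :
    rootOm hn ((Pi.single (Sum.inl a) 1 : Fin n ⊕ Fin n → F), Pi.single (Sum.inr b) 1) =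
      slOm hn (Matrix.SpecialLinearGroup.transvection hab 1) := by
  have h := isPair_single (F := F) (a := Sum.inl a) (b := Sum.inr b) (by simp) (by simp [hab.symm])
  apply Subtype.ext; apply Subtype.ext; apply gl_ext
  intro x
  rw [coe_rootOm hn h.1 h.2.2.1, eichler_mulVec, h.2.1, bform_qPlus, bform_qPlus]
  set T := Matrix.SpecialLinearGroup.transvection hab (1 : F)
  have hinv : (((Matrix.SpecialLinearGroup.toGL T)⁻¹ : GL (Fin n) F) : Matrix (Fin n) (Fin n) F) =
      Matrix.transvection a b (-1 : F) := by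
    refine Units.inv_eq_of_mul_eq_one_right ?_
    change Matrix.transvection a b (1 : F) * _ = 1
    rw [Matrix.transvection_mul_transvection_same _ _ hab, add_neg_cancel, Matrix.transvection_zero]
  change _ = (((CfsgLib.Char2Forms.levi (Matrix.SpecialLinearGroup.toGL T) :
    Cfsg.isometryGroup F (qPlus n F)) : GL (Fin n ⊕ Fin n) F) : Matrix (Fin n ⊕ Fin n) (Fin n ⊕ Fin n) F) *ᵥ x
  rw [CfsgLib.Char2Forms.levi_mulVec, hinv]
  change _ = Sum.elim (Matrix.transvection a b (1 : F) *ᵥ _) _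
  funext i
  rcases i with i | i
  · simp [Matrix.transvection, Matrix.add_mulVec, dotProduct, Pi.single_apply, Matrix.single_mulVec,
      Function.update_apply]
  · simp [Matrix.transvection, Matrix.add_mulVec, dotProduct, Pi.single_apply, Matrix.transpose_single,
      Matrix.single_mulVec, Function.update_apply]
    by_cases h1 : i = b <;> simp [h1]
    ring

/-- A normal subgroup of `Omega^+` is central or everything. -/
theorem normal_le_center_or_top (hn : 4 ≤ n) (N : Subgroup (OmPlus n F)) [N.Normal] :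
    N ≤ Subgroup.center (OmPlus n F) ∨ N = ⊤ := by
  let e : OmPlus n F ≃* omegaGL (qPlus n F) :=
    (OmPlus n F).equivMapOfInjective (Cfsg.isometryGroup F (qPlus n F)).subtype Subtype.val_injective
  have : (N.map e.toMonoidHom).Normal := Subgroup.Normal.map inferInstance _ e.surjective
  rcases omegaGL_normal_le_center_or_top (nondeg_qPlus n) (by simp; omega) (N.map e.toMonoidHom) with h | h
  · refine Or.inl fun x hx => Subgroup.mem_center_iff.2 fun y => e.injective ?_
    rw [map_mul, map_mul]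
    exact Subgroup.mem_center_iff.1 (h ⟨x, hx, rfl⟩) (e y)
  · refine Or.inr (eq_top_iff.2 fun x _ => ?_)
    obtain ⟨y, hy, hxy⟩ := h.symm ▸ Subgroup.mem_top (e x)
    exact e.injective hxy ▸ hy

/-- The Siegel radical meets the centre trivially. -/
theorem altOf_eq_zero_of_central (hn : 4 ≤ n) (hq : 4 ≤ Fintype.card F) {v : Fin n × Fin n → F}
    (h : siegelOm hq v ∈ Subgroup.center (OmPlus n F)) : altOf v = 0 := by
  obtain ⟨c, hc⟩ := CfsgLib.Classical.Orth.scalar_of_mem_center (nondeg_qPlus n) (by simp; omega) h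
  ext i j
  have := congrFun (hc (Pi.single (Sum.inr j) 1)) (Sum.inl i)
  change (fromBlocks 1 (altOf v) 0 1 *ᵥ Pi.single (Sum.inr j) 1) (Sum.inl i) = _ at this
  simpa [Matrix.mulVec_single_one] using this

end CfsgLib.OrthPlusDeg
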