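import Mathlib
import Cfsg.Agent.SlMinDegree.Weights

/-!
Projections onto the weight spaces of a representation of a coordinate space over a finite field.
-/

set_option autoImplicit false
set_option linter.unusedSectionVars false

noncomputable section

namespace CfsgLib.OrthPlusDeg

open Matrix

variable {F : Type*} [Field F] [Fintype F] [DecidableEq F] {ι : Type*} [Fintype ι] [DecidableEq ι]
variable {k : ℕ} (R : (ι → F) → Matrix (Fin k) (Fin k) ℂ) (ψ : AddChar F ℂ)

/-- The projection onto the weight space of `w`. -/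
def weightProj (w : ι → F) : Matrix (Fin k) (Fin k) ℂ :=
  (Fintype.card (ι → F) : ℂ)⁻¹ • ∑ v : ι → F, ψ (-(v ⬝ᵥ w)) • R v

variable {R ψ}
variable (h0 : R 0 = 1) (hadd : ∀ u v, R (u + v) = R u * R v) (hψ : ψ 1 ≠ 1)

include hψ in
theorem sum_psi_pairing (v : ι → F) :
    ∑ w : ι → F, ψ (v ⬝ᵥ w) = if v = 0 then (Fintype.card (ι → F) : ℂ) else 0 := by
  split_ifs with hv
  · subst hv; simp
  · obtain ⟨i, hi⟩ := Function.ne_iff.1 hv
    set y : ι → F := Pi.single i (v i)⁻¹ with hy
    have hvy : v ⬝ᵥ y = 1 := by rw [hy, dotProduct_single, mul_inv_cancel₀ hi]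
    have h1 : ∑ w : ι → F, ψ (v ⬝ᵥ w) = ψ 1 * ∑ w : ι → F, ψ (v ⬝ᵥ w) := by
      rw [Finset.mul_sum, ← Equiv.sum_comp (Equiv.addLeft y) (fun w => ψ (v ⬝ᵥ w))]
      refine Finset.sum_congr rfl fun w _ => ?_
      rw [Equiv.coe_addLeft, dotProduct_add, hvy, AddChar.map_add_eq_mul]
    by_contra h
    exact hψ (mul_right_cancel₀ h (by rw [← h1, one_mul]))

include h0 hψ in
theorem sum_weightProj : ∑ w : ι → F, weightProj R ψ w = 1 := by
  have hne : (Fintype.card (ι → F) : ℂ) ≠ 0 := Nat.cast_ne_zero.2 Fintype.card_ne_zero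
  simp only [weightProj]
  rw [← Finset.smul_sum, Finset.sum_comm]
  simp only [← Finset.sum_smul]
  have h : ∀ v : ι → F, ∑ w : ι → F, ψ (-(v ⬝ᵥ w)) =
      if v = 0 then (Fintype.card (ι → F) : ℂ) else 0 := fun v => by
    rw [← sum_psi_pairing hψ v, ← Equiv.sum_comp (Equiv.neg (ι → F)) (fun w => ψ (v ⬝ᵥ w))]
    simp
  simp only [h, ite_smul, zero_smul, Finset.sum_ite_eq', Finset.mem_univ, if_true]
  rw [h0, inv_smul_smul₀ hne]

include hadd in
theorem mul_weightProj (v w : ι → F) :
    R v * weightProj R ψ w = ψ (v ⬝ᵥ w) • weightProj R ψ w := by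
  simp only [weightProj]
  rw [mul_smul_comm, smul_comm (ψ (v ⬝ᵥ w)), Finset.mul_sum, Finset.smul_sum (r := ψ (v ⬝ᵥ w))]
  congr 1
  conv_rhs => rw [← Equiv.sum_comp (Equiv.addLeft v) (fun x => ψ (v ⬝ᵥ w) • ψ (-(x ⬝ᵥ w)) • R x)]
  refine Finset.sum_congr rfl fun x _ => ?_
  rw [Equiv.coe_addLeft, mul_smul_comm, ← hadd, smul_smul, ← AddChar.map_add_eq_mul]
  congr 2
  rw [add_dotProduct]; ring

include hadd in
theorem weightProj_mul (v w : ι → F) :
    weightProj R ψ w * R v = ψ (v ⬝ᵥ w) • weightProj R ψ w := by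
  have hc : ∀ x, R x * R v = R v * R x := fun x => by rw [← hadd, ← hadd, add_comm]
  rw [← mul_weightProj hadd v w]
  simp only [weightProj, smul_mul_assoc, mul_smul_comm, Finset.sum_mul, Finset.mul_sum, hc]

include hadd hψ in
theorem weightProj_mul_weightProj (w w' : ι → F) :
    weightProj R ψ w * weightProj R ψ w' = if w = w' then weightProj R ψ w' else 0 := by
  have hne : (Fintype.card (ι → F) : ℂ) ≠ 0 := Nat.cast_ne_zero.2 Fintype.card_ne_zero
  nth_rewrite 1 [weightProj]
  rw [smul_mul_assoc, Finset.sum_mul]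
  simp only [smul_mul_assoc, mul_weightProj hadd, smul_smul, ← Finset.sum_smul]
  have h : ∀ x : ι → F, ψ (-(x ⬝ᵥ w)) * ψ (x ⬝ᵥ w') = ψ ((w' - w) ⬝ᵥ x) := fun x => by
    rw [← AddChar.map_add_eq_mul, sub_dotProduct, dotProduct_comm w', dotProduct_comm w]
    congr 1; ring
  simp only [h, sum_psi_pairing hψ, sub_eq_zero, eq_comm (a := w')]
  split_ifs with h1
  · rw [inv_mul_cancel₀ hne, one_smul]
  · simp

include hadd hψ in
theorem weightProj_idem (w : ι → F) : weightProj R ψ w * weightProj R ψ w = weightProj R ψ w := by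
  rw [weightProj_mul_weightProj hadd hψ, if_pos rfl]

/-- Transport of weights by an element normalising the abelian subgroup. -/
theorem comm_weightProj {L : Matrix (Fin k) (Fin k) ℂ} (e : (ι → F) ≃ (ι → F))
    (hL : ∀ v, L * R v = R (e v) * L) {w w' : ι → F} (hw : ∀ v, e v ⬝ᵥ w' = v ⬝ᵥ w) :
    L * weightProj R ψ w = weightProj R ψ w' * L := by
  simp only [weightProj]
  rw [mul_smul_comm, smul_mul_assoc, Finset.mul_sum, Finset.sum_mul]
  congr 1
  conv_rhs => rw [← e.sum_comp]
  refine Finset.sum_congr rfl fun v _ => ?_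
  rw [mul_smul_comm, smul_mul_assoc, hL, hw]

variable (R ψ) in
/-- The multiplicity of a weight. -/
def weightMult (w : ι → F) : ℕ :=
  if h : weightProj R ψ w * weightProj R ψ w = weightProj R ψ w then
    (CfsgLib.SlMinDegree.exists_natCast_trace h).choose else 0

include hadd hψ in
theorem trace_weightProj (w : ι → F) : (weightProj R ψ w).trace = weightMult R ψ w := by
  rw [weightMult, dif_pos (weightProj_idem hadd hψ w)]
  exact (CfsgLib.SlMinDegree.exists_natCast_trace (weightProj_idem hadd hψ w)).choose_spec.1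

include hadd hψ in
theorem weightProj_eq_zero {w : ι → F} (h : weightMult R ψ w = 0) : weightProj R ψ w = 0 := by
  rw [weightMult, dif_pos (weightProj_idem hadd hψ w)] at h
  exact (CfsgLib.SlMinDegree.exists_natCast_trace (weightProj_idem hadd hψ w)).choose_spec.2 h

include h0 hadd hψ in
theorem sum_weightMult : ∑ w : ι → F, weightMult R ψ w = k := by
  have h := congrArg Matrix.trace (sum_weightProj (R := R) h0 hψ)
  rw [Matrix.trace_sum, Finset.sum_congr rfl (fun w _ => trace_weightProj hadd hψ w), Matrix.trace_one,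
    Fintype.card_fin] at h
  exact_mod_cast h

include h0 hadd hψ in
/-- The trace of an element of the abelian group. -/
theorem trace_apply (v : ι → F) : (R v).trace = ∑ w : ι → F, ψ (v ⬝ᵥ w) * weightMult R ψ w := by
  conv_lhs => rw [← mul_one (R v), ← sum_weightProj (R := R) h0 hψ, Finset.mul_sum]
  rw [Matrix.trace_sum]
  refine Finset.sum_congr rfl fun w _ => ?_
  rw [mul_weightProj hadd, Matrix.trace_smul, trace_weightProj hadd hψ, smul_eq_mul]

include hadd hψ in
/-- A weight of positive multiplicity kills the kernel of `R`. -/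
theorem dot_eq_zero_of_weightMult {w : ι → F} (h : weightMult R ψ w ≠ 0) {v : ι → F}
    (hv : ∀ x : F, R (x • v) = 1) : v ⬝ᵥ w = 0 := by
  by_contra hne
  have h1 := mul_weightProj (ψ := ψ) hadd ((v ⬝ᵥ w)⁻¹ • v) w
  rw [hv, one_mul, smul_dotProduct, smul_eq_mul, inv_mul_cancel₀ hne] at h1
  have h2 : weightProj R ψ w ≠ 0 := fun hz => h (by
    have := trace_weightProj hadd hψ w
    rw [hz, Matrix.trace_zero] at this
    exact_mod_cast this.symm)
  exact hψ (smul_left_injective ℂ h2 (by simpa using h1.symm))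

end CfsgLib.OrthPlusDeg
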