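import Cfsg.Agent.OrthPlusDeg.PlusGroup
import Cfsg.Agent.OrthPlusDeg.Weight

/-!
The weights of the Siegel radical in a representation of `Omega^+` of small degree: the nonzero
decomposable alternating matrices, each with multiplicity one.
-/

set_option autoImplicit false
set_option linter.unusedSectionVars false

noncomputable section

namespace CfsgLib.OrthPlusDeg

open Matrix
open scoped MatrixGroups

variable {F : Type*} [Field F] [Fintype F] [DecidableEq F] {n k : ℕ}

/-- The restriction to the Siegel radical. -/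
def radRep (hq : 4 ≤ Fintype.card F) (R : OmPlus n F →* Matrix (Fin k) (Fin k) ℂ)
    (v : Fin n × Fin n → F) : Matrix (Fin k) (Fin k) ℂ := R (siegelOm hq v)

/-- The square matrix of a weight. -/
def sq2 (w : Fin n × Fin n → F) : Matrix (Fin n) (Fin n) F := Matrix.of fun i j => w (i, j)

theorem flat2_sq2 (w : Fin n × Fin n → F) : flat2 (sq2 w) = w := rfl

theorem sq2_flat2 (W : Matrix (Fin n) (Fin n) F) : sq2 (flat2 W) = W := rfl

theorem flat2_dot_congr (g V W : Matrix (Fin n) (Fin n) F) :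
    flat2 (g * V * gᵀ) ⬝ᵥ flat2 W = flat2 V ⬝ᵥ flat2 (gᵀ * W * g) := by
  have e : ∀ M N : Matrix (Fin n) (Fin n) F, flat2 M ⬝ᵥ flat2 N = (Mᵀ * N).trace := fun M N => by
    simp only [flat2, dotProduct, Matrix.trace, Matrix.diag, Matrix.mul_apply, Fintype.sum_prod_type,
      Matrix.transpose_apply]
    exact Finset.sum_comm
  rw [e, e, Matrix.transpose_mul, Matrix.transpose_mul, Matrix.transpose_transpose, ← Matrix.mul_assoc,
    Matrix.mul_assoc (g * Vᵀ), Matrix.mul_assoc g, Matrix.trace_mul_comm g]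
  simp only [Matrix.mul_assoc]

variable {hn : 4 ≤ n} {hq : 4 ≤ Fintype.card F} (R : OmPlus n F →* Matrix (Fin k) (Fin k) ℂ)

theorem radRep_zero : radRep hq R 0 = 1 := by rw [radRep, siegelOm_zero, map_one]

theorem radRep_add (u v : Fin n × Fin n → F) :
    radRep hq R (u + v) = radRep hq R u * radRep hq R v := by rw [radRep, siegelOm_add, map_mul]; rfl

theorem radRep_eq_one {v : Fin n × Fin n → F} (h : altOf v = 0) : radRep hq R v = 1 := by
  rw [radRep, siegelOm_congr hq (show altOf v = altOf 0 by rw [h]; ext i j; simp [altOf_apply]),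
    siegelOm_zero, map_one]

variable (hn) in
/-- Levi elements permute the weight projections. -/
theorem levi_comm_weightProj (ψ : AddChar F ℂ) (g : GL (Fin n) F)
    (hg : IsSquare (g : Matrix (Fin n) (Fin n) F).det) (W : Matrix (Fin n) (Fin n) F) :
    R (leviOm hn g hg) * weightProj (radRep hq R) ψ
        (flat2 ((g : Matrix (Fin n) (Fin n) F)ᵀ * W * (g : Matrix (Fin n) (Fin n) F))) =
      weightProj (radRep hq R) ψ (flat2 W) * R (leviOm hn g hg) := by
  have h1 : (g : Matrix (Fin n) (Fin n) F) * ((g⁻¹ : GL (Fin n) F) : Matrix (Fin n) (Fin n) F) = 1 := by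
    rw [← Units.val_mul, mul_inv_cancel, Units.val_one]
  have h2 : ((g⁻¹ : GL (Fin n) F) : Matrix (Fin n) (Fin n) F) * (g : Matrix (Fin n) (Fin n) F) = 1 := by
    rw [← Units.val_mul, inv_mul_cancel, Units.val_one]
  let e : (Fin n × Fin n → F) ≃ (Fin n × Fin n → F) :=
    { toFun := fun v => flat2 ((g : Matrix (Fin n) (Fin n) F) * sq2 v * (g : Matrix (Fin n) (Fin n) F)ᵀ)
      invFun := fun v => flat2 (((g⁻¹ : GL (Fin n) F) : Matrix (Fin n) (Fin n) F) * sq2 v *
        ((g⁻¹ : GL (Fin n) F) : Matrix (Fin n) (Fin n) F)ᵀ)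
      left_inv := fun v => by
        simp only [sq2_flat2, ← Matrix.mul_assoc, h2, Matrix.one_mul]
        rw [Matrix.mul_assoc, ← Matrix.transpose_mul, h2, Matrix.transpose_one, Matrix.mul_one, flat2_sq2]
      right_inv := fun v => by
        simp only [sq2_flat2, ← Matrix.mul_assoc, h1, Matrix.one_mul]
        rw [Matrix.mul_assoc, ← Matrix.transpose_mul, h1, Matrix.transpose_one, Matrix.mul_one, flat2_sq2] }
  refine comm_weightProj e (fun v => ?_) (fun v => ?_)
  · rw [radRep, radRep, ← map_mul, ← map_mul, leviOm_siegelOm hn hq g hg v]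
    rfl
  · exact flat2_dot_congr _ _ _

variable {ψ : AddChar F ℂ}

theorem weightMult_congr (hn : 4 ≤ n) (hψ : ψ 1 ≠ 1) {h : Matrix (Fin n) (Fin n) F} (hd : h.det ≠ 0)
    (hs : IsSquare h.det) (W : Matrix (Fin n) (Fin n) F) :
    weightMult (radRep hq R) ψ (flat2 (h * W * hᵀ)) = weightMult (radRep hq R) ψ (flat2 W) := by
  let g : GL (Fin n) F := GeneralLinearGroup.mkOfDetNeZero hᵀ (by rwa [Matrix.det_transpose])
  have hg : IsSquare (g : Matrix (Fin n) (Fin n) F).det := by
    change IsSquare hᵀ.det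
    rwa [Matrix.det_transpose]
  have e := levi_comm_weightProj hn (hq := hq) R ψ g hg W
  have e' : (g : Matrix (Fin n) (Fin n) F)ᵀ * W * (g : Matrix (Fin n) (Fin n) F) = h * W * hᵀ := by
    change hᵀᵀ * W * hᵀ = _
    rw [Matrix.transpose_transpose]
  rw [e'] at e
  have hL : R (leviOm hn g hg)⁻¹ * R (leviOm hn g hg) = 1 := by rw [← map_mul, inv_mul_cancel, map_one]
  have hL' : R (leviOm hn g hg) * R (leviOm hn g hg)⁻¹ = 1 := by rw [← map_mul, mul_inv_cancel, map_one]
  have h1 : weightProj (radRep hq R) ψ (flat2 W) =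
      R (leviOm hn g hg) * weightProj (radRep hq R) ψ (flat2 (h * W * hᵀ)) * R (leviOm hn g hg)⁻¹ := by
    rw [e, mul_assoc, hL', mul_one]
  have h2 : ((weightMult (radRep hq R) ψ (flat2 W) : ℕ) : ℂ) =
      weightMult (radRep hq R) ψ (flat2 (h * W * hᵀ)) := by
    rw [← trace_weightProj (radRep_add R) hψ, ← trace_weightProj (radRep_add R) hψ, h1,
      Matrix.trace_mul_comm, ← mul_assoc, hL, one_mul]
  exact_mod_cast h2.symm

theorem isAlt_of_weightMult (hψ : ψ 1 ≠ 1) {w : Fin n × Fin n → F}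
    (h : weightMult (radRep hq R) ψ w ≠ 0) : IsAlt (sq2 w) := by
  refine ⟨fun i => ?_, fun i j => ?_⟩
  · have := dot_eq_zero_of_weightMult (radRep_add R) hψ h (v := Pi.single (i, i) 1)
      (fun x => radRep_eq_one R (by
        ext a b
        by_cases ha : a = i <;> by_cases hb : b = i <;> simp [altOf_apply, Pi.single_apply, ha, hb]))
    simpa [sq2] using this
  · have := dot_eq_zero_of_weightMult (radRep_add R) hψ h (v := Pi.single (i, j) 1 + Pi.single (j, i) 1)
      (fun x => radRep_eq_one R (by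
        ext a b
        simp [altOf_apply, Pi.single_apply, and_comm]
        split_ifs <;> ring))
    rw [add_dotProduct, single_dotProduct, single_dotProduct, one_mul, one_mul] at this
    exact eq_neg_of_add_eq_zero_right this

/-- The weights of a nontrivial representation of degree below the bound. -/
theorem weight_structure (hn : 4 ≤ n) (hψ : ψ 1 ≠ 1) (hR : ∃ g, R g ≠ 1)
    (hk : (k + 1) * (Fintype.card F ^ 2 - 1) ≤
      (Fintype.card F ^ n - 1) * (Fintype.card F ^ (n - 1) + Fintype.card F)) :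
    ∀ w : Fin n × Fin n → F, w ≠ 0 →
      (IsWedge (sq2 w) → weightMult (radRep hq R) ψ w = 1) ∧
        (¬ IsWedge (sq2 w) → weightMult (radRep hq R) ψ w = 0) := by
  classical
  set q := Fintype.card F with hqdef
  set μ := weightMult (radRep hq R) ψ
  have hsum : ∑ w, μ w = k := sum_weightMult (radRep_zero R) (radRep_add R) hψ
  have hq2 : 1 ≤ q ^ 2 := Nat.one_le_pow _ _ (by omega)
  have hqn : 1 ≤ q ^ n := Nat.one_le_pow _ _ (by omega)
  have hqn1 : q + 2 ≤ q ^ (n - 1) := by
    have h3 : q ^ 2 ≤ q ^ (n - 1) := Nat.pow_le_pow_right (by omega) (by omega)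
    nlinarith
  have hZ : k * (q ^ 2 - 1) < (q ^ n - 1) * (q ^ (n - 1) + q) := by
    rw [Nat.add_mul, one_mul] at hk
    have : 16 ≤ q ^ 2 := by nlinarith
    omega
  have hno : ∀ w, w ≠ 0 → ¬ IsWedge (sq2 w) → μ w = 0 := by
    intro w hw hwd
    by_contra hne
    have halt := isAlt_of_weightMult (hq := hq) R hψ hne
    have hW0 : sq2 w ≠ 0 := fun h0 => hw (by rw [← flat2_sq2 w, h0]; rfl)
    have hbig := card_sqOrbit_ge hn hq halt hW0 hwd
    have hle : (sqOrbit (sq2 w)).card ≤ k := by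
      rw [← hsum, ← Finset.card_image_of_injective _ flat2_injective]
      refine le_trans ?_ (Finset.sum_le_sum_of_subset (Finset.subset_univ ((sqOrbit (sq2 w)).image flat2)))
      rw [Finset.card_eq_sum_ones]
      refine Finset.sum_le_sum fun x hx => ?_
      obtain ⟨M, hM, rfl⟩ := Finset.mem_image.1 hx
      obtain ⟨g, hg, hgs, rfl⟩ := mem_sqOrbit.1 hM
      rw [Nat.one_le_iff_ne_zero, show μ (flat2 (g * sq2 w * gᵀ)) = μ (flat2 (sq2 w)) from
        weightMult_congr R hn hψ hg hgs _, flat2_sq2]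
      exact hne
    set u := q ^ (n - 1) with hu
    set X := q ^ n - 1
    have hX : 0 < X := by
      have : q ^ 2 ≤ q ^ n := Nat.pow_le_pow_right (by omega) (by omega)
      have : 16 ≤ q ^ 2 := by nlinarith
      omega
    have hu3 : q ^ 3 ≤ u := Nat.pow_le_pow_right (by omega) (by omega)
    have h1 : 2 * (X * (u - 1)) * (q ^ 2 - 1) < q ^ 2 * (X * (u + q)) := by
      calc 2 * (X * (u - 1)) * (q ^ 2 - 1) ≤ q ^ 2 * k * (q ^ 2 - 1) :=
            Nat.mul_le_mul_right _ (hbig.trans (Nat.mul_le_mul_left _ hle))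
        _ = q ^ 2 * (k * (q ^ 2 - 1)) := by ring
        _ < q ^ 2 * (X * (u + q)) := Nat.mul_lt_mul_of_pos_left hZ (by positivity)
    have h2 : 2 * ((u - 1) * (q ^ 2 - 1)) < q ^ 2 * (u + q) := by
      refine Nat.lt_of_mul_lt_mul_left (a := X) ?_
      calc X * (2 * ((u - 1) * (q ^ 2 - 1))) = 2 * (X * (u - 1)) * (q ^ 2 - 1) := by ring
        _ < _ := h1
        _ = _ := by ring
    obtain ⟨u', hu'⟩ : ∃ u', u = u' + 1 := ⟨u - 1, by omega⟩
    obtain ⟨a, ha⟩ : ∃ a, q ^ 2 = a + 1 := ⟨q ^ 2 - 1, by omega⟩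
    have h16 : 15 ≤ a := by nlinarith
    have h3 : q * a ≤ u' + 1 := by
      have : q * (q ^ 2) ≤ u := by rw [← pow_succ']; exact hu3
      rw [ha] at this; nlinarith
    rw [hu', ha, Nat.add_sub_cancel, Nat.add_sub_cancel] at h2
    nlinarith
  have hn2 : (⟨0, by omega⟩ : Fin n) ≠ ⟨1, by omega⟩ := by simp
  obtain ⟨w₀, hw₀, hμ₀⟩ : ∃ w, w ≠ 0 ∧ μ w ≠ 0 := by
    by_contra hc
    push Not at hc
    have hP : weightProj (radRep hq R) ψ (0 : Fin n × Fin n → F) = 1 := by
      rw [← sum_weightProj (R := radRep hq R) (radRep_zero R) hψ]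
      exact (Finset.sum_eq_single 0
        (fun w _ hw => weightProj_eq_zero (radRep_add R) hψ (hc w hw)) (by simp)).symm
    set v : Fin n × Fin n → F := Pi.single (⟨0, by omega⟩, ⟨1, by omega⟩) 1
    have hv : R (siegelOm hq v) = 1 := by
      have h := mul_weightProj (ψ := ψ) (radRep_add (hq := hq) R) v 0
      rwa [hP, mul_one, dotProduct_zero, AddChar.map_zero_eq_one, one_smul] at h
    rcases normal_le_center_or_top hn R.ker with h | h
    · have := congrFun (congrFun (altOf_eq_zero_of_central hn hq (h (MonoidHom.mem_ker.2 hv)))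
        ⟨0, by omega⟩) ⟨1, by omega⟩
      simp [v, altOf_apply, hn2, hn2.symm] at this
    · obtain ⟨g, hg⟩ := hR
      exact hg (MonoidHom.mem_ker.1 (h ▸ Subgroup.mem_top g : g ∈ R.ker))
  have hwedge₀ : IsWedge (sq2 w₀) := by
    by_contra h
    exact hμ₀ (hno w₀ hw₀ h)
  have hconst : ∀ W : Matrix (Fin n) (Fin n) F, IsWedge W → μ (flat2 W) = μ w₀ := by
    intro W hW
    obtain ⟨g, hg, hgW⟩ := hW.exists_det_one (by omega) hn2
    obtain ⟨g₀, hg₀, hgW₀⟩ := hwedge₀.exists_det_one (by omega) hn2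
    set W₁ := wedge (Pi.single (⟨0, by omega⟩ : Fin n) (1 : F)) (Pi.single ⟨1, by omega⟩ 1)
    have e1 : μ (flat2 W) = μ (flat2 W₁) := by
      rw [← hgW]; exact weightMult_congr R hn hψ (by rw [hg]; exact one_ne_zero) (by rw [hg]; exact IsSquare.one) _
    have e2 : μ (flat2 (sq2 w₀)) = μ (flat2 W₁) := by
      rw [← hgW₀]; exact weightMult_congr R hn hψ (by rw [hg₀]; exact one_ne_zero) (by rw [hg₀]; exact IsSquare.one) _
    rw [e1, ← e2, flat2_sq2]
  have hone : μ w₀ = 1 := by
    by_contra hne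
    have h2 : 2 ≤ μ w₀ := by omega
    have hle : (wedgeSet F n).card * μ w₀ ≤ k := by
      rw [← hsum, ← Finset.card_image_of_injective _ flat2_injective]
      refine le_trans ?_ (Finset.sum_le_sum_of_subset (Finset.subset_univ ((wedgeSet F n).image flat2)))
      rw [← smul_eq_mul]
      refine Finset.card_nsmul_le_sum _ _ _ fun x hx => ?_
      obtain ⟨M, hM, rfl⟩ := Finset.mem_image.1 hx
      exact (hconst M (mem_wedgeSet.1 hM)).ge
    have hS := card_wedgeSet (F := F) n
    rw [← hqdef] at hS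
    have h3 : 2 * ((q ^ n - 1) * (q ^ (n - 1) - 1)) < (q ^ n - 1) * (q ^ (n - 1) + q) := by
      calc 2 * ((q ^ n - 1) * (q ^ (n - 1) - 1)) = (q ^ 2 - 1) * ((wedgeSet F n).card * 2) := by rw [← hS]; ring
        _ ≤ (q ^ 2 - 1) * k := Nat.mul_le_mul_left _ (le_trans (Nat.mul_le_mul_left _ h2) hle)
        _ < _ := by rw [mul_comm]; exact hZ
    have h4 : 2 * (q ^ (n - 1) - 1) < q ^ (n - 1) + q := by
      refine Nat.lt_of_mul_lt_mul_left (a := q ^ n - 1) ?_
      calc (q ^ n - 1) * (2 * (q ^ (n - 1) - 1)) = 2 * ((q ^ n - 1) * (q ^ (n - 1) - 1)) := by ring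
        _ < _ := h3
    omega
  intro w hw
  refine ⟨fun h => ?_, hno w hw⟩
  have := hconst (sq2 w) h
  rwa [flat2_sq2, hone] at this

end CfsgLib.OrthPlusDeg
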