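import Cfsg.Agent.OrthPlusDeg.PlusGroup
import Cfsg.Agent.SlMinDegree.Bound

/-!
The number of pairs spanning totally singular lines, and the arithmetic that excludes the degree one
below the bound.
-/

set_option autoImplicit false
set_option linter.unusedSectionVars false

noncomputable section

namespace CfsgLib.OrthPlusDeg

open Cfsg.Geo CfsgLib.OrthGeo Matrix
open scoped MatrixGroups

variable {F : Type*} [Field F] [Fintype F] [DecidableEq F]

/-- The nonzero singular vectors of the hyperbolic form. -/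
def singSet (F : Type*) [Field F] [Fintype F] [DecidableEq F] (m : ℕ) : Finset (Fin m ⊕ Fin m → F) :=
  Finset.univ.filter fun v => v ≠ 0 ∧ qPlus m F v = 0

theorem mem_singSet {m : ℕ} {v : Fin m ⊕ Fin m → F} : v ∈ singSet F m ↔ v ≠ 0 ∧ qPlus m F v = 0 := by
  simp [singSet]

theorem card_singSet {m : ℕ} (hm : 1 ≤ m) :
    (singSet F m).card = (Fintype.card F ^ m - 1) * (Fintype.card F ^ (m - 1) + 1) := by
  classical
  set q := Fintype.card F with hq
  have hq1 : 1 ≤ q := Fintype.card_pos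
  set A := (Finset.univ : Finset (Fin m → F)).sigma fun x =>
    (Finset.univ : Finset (Fin m → F)).filter fun y => y ⬝ᵥ x = 0 with hA
  have hAcard : A.card = q ^ m + (q ^ m - 1) * q ^ (m - 1) := by
    rw [hA, Finset.card_sigma, ← Finset.add_sum_erase _ _ (Finset.mem_univ (0 : Fin m → F))]
    congr 1
    · simp [q]
    · rw [Finset.sum_congr rfl (g := fun _ => q ^ (m - 1)) (fun x hx => ?_), Finset.sum_const,
        Finset.card_erase_of_mem (Finset.mem_univ _), Finset.card_univ, Fintype.card_fun, Fintype.card_fin,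
        smul_eq_mul]
      have h := CfsgLib.SlMinDegree.card_perp (Finset.ne_of_mem_erase hx)
      rw [Fintype.card_fun, Fintype.card_fin, ← hq, show q ^ m = q * q ^ (m - 1) by
        rw [← pow_succ', Nat.sub_add_cancel hm]] at h
      exact Nat.eq_of_mul_eq_mul_left hq1 h
  have hins : A.card = (insert 0 (singSet F m)).card := by
    refine Finset.card_bij (fun p _ => Sum.elim p.1 p.2) ?_ ?_ ?_
    · rintro ⟨x, y⟩ hp
      simp only [hA, Finset.mem_sigma, Finset.mem_filter, Finset.mem_univ, true_and] at hp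
      refine Finset.mem_insert.2 ?_
      by_cases h0 : Sum.elim x y = (0 : Fin m ⊕ Fin m → F)
      · exact Or.inl h0
      · refine Or.inr (mem_singSet.2 ⟨h0, ?_⟩)
        simp [qPlus, CfsgLib.Char2Forms.quadFormPlus_eq, dotProduct_comm x y, hp]
    · rintro ⟨x, y⟩ _ ⟨x', y'⟩ _ h
      have h1 : x = x' := funext fun i => congrFun h (Sum.inl i)
      have h2 : y = y' := funext fun i => congrFun h (Sum.inr i)
      subst h1; subst h2; rfl
    · intro v hv
      refine ⟨⟨v ∘ Sum.inl, v ∘ Sum.inr⟩, ?_, Sum.elim_comp_inl_inr v⟩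
      simp only [hA, Finset.mem_sigma, Finset.mem_filter, Finset.mem_univ, true_and]
      rcases Finset.mem_insert.1 hv with rfl | hv
      · simp
      · rw [dotProduct_comm]; exact (mem_singSet.1 hv).2
  rw [Finset.card_insert_of_notMem (fun h => (mem_singSet.1 h).1 rfl), hAcard] at hins
  have : 1 ≤ q ^ m := Nat.one_le_pow _ _ hq1
  rw [Nat.mul_add, Nat.mul_one]
  omega

variable {n : ℕ}

/-- The pairs spanning totally singular lines. -/
def pairSet (F : Type*) [Field F] [Fintype F] [DecidableEq F] (n : ℕ) :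
    Finset ((Fin n ⊕ Fin n → F) × (Fin n ⊕ Fin n → F)) :=
  @Finset.filter _ (fun p => IsPair p) (Classical.decPred _) Finset.univ

theorem mem_pairSet {p : (Fin n ⊕ Fin n → F) × (Fin n ⊕ Fin n → F)} :
    p ∈ pairSet F n ↔ IsPair p := by simp [pairSet]

/-- The number of pairs spanning totally singular lines. -/
theorem card_pairSet (hn : 2 ≤ n) : (pairSet F n).card =
    (Fintype.card F ^ n - 1) * (Fintype.card F ^ (n - 1) + 1) *
      (Fintype.card F * ((Fintype.card F ^ (n - 1) - 1) * (Fintype.card F ^ (n - 2) + 1))) := by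
  classical
  obtain ⟨m, rfl⟩ : ∃ m, n = m + 1 := ⟨n - 1, by omega⟩
  rw [Nat.add_sub_cancel, show m + 1 - 2 = m - 1 by omega]
  set q := Fintype.card F with hq
  have hsing := card_singSet (F := F) (m := m + 1) (by omega)
  rw [Nat.add_sub_cancel] at hsing
  have hsmall := card_singSet (F := F) (m := m) (by omega)
  rw [← hsing, ← hsmall]
  rw [Finset.card_eq_sum_card_fiberwise (f := fun p : (Fin (m + 1) ⊕ Fin (m + 1) → F) × _ => p.1)
    (t := singSet F (m + 1)) (fun p hp => mem_singSet.2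
      ⟨(mem_pairSet.1 hp).2.2.2.1, (mem_pairSet.1 hp).1⟩)]
  rw [← smul_eq_mul, ← Finset.sum_const]
  refine Finset.sum_congr rfl fun u hu => ?_
  obtain ⟨hu0, huQ⟩ := mem_singSet.1 hu
  set a : Fin (m + 1) ⊕ Fin (m + 1) → F := Pi.single (Sum.inl 0) 1 with ha
  have ha0 : a ≠ 0 := fun h => one_ne_zero (show (1 : F) = 0 by simpa [ha] using congrFun h (Sum.inl 0))
  have haQ : qPlus (m + 1) F a = 0 := by
    simp [ha, qPlus, CfsgLib.Char2Forms.quadFormPlus_eq, dotProduct]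
  obtain ⟨g, hg, hgi⟩ := CfsgLib.LinAlg.Witt.exists_quadFun_family (nondeg_qPlus (F := F) (m + 1))
    (a := ![u]) (b := ![a]) (linearIndependent_unique_iff.2 (by simpa using hu0))
    (linearIndependent_unique_iff.2 (by simpa using ha0)) (fun i => by fin_cases i; simp [huQ, haQ])
    (fun i j => by
      simp only [← bform_apply (nondeg_qPlus (F := F) (m + 1))]
      fin_cases i; fin_cases j
      simp [b_self (nondeg_qPlus (F := F) (m + 1)), huQ, haQ, -bform_apply])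
  let G : Cfsg.isometryGroup F (qPlus (m + 1) F) := ⟨g, hg⟩
  have hGu : ((G : GL (Fin (m + 1) ⊕ Fin (m + 1)) F) : Matrix _ _ F) *ᵥ u = a := hgi 0
  have hstep : ((pairSet F (m + 1)).filter fun p => p.1 = u).card =
      ((pairSet F (m + 1)).filter fun p => p.1 = a).card := by
    refine Finset.card_nbij' (mapPair G) (mapPair G⁻¹) ?_ ?_ ?_ ?_
    · intro p hp
      simp only [Finset.coe_filter, Set.mem_ofPred_eq, mem_pairSet] at hp ⊢
      exact ⟨isPair_mapPair G hp.1, by simp [mapPair, hp.2, hGu]⟩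
    · intro p hp
      simp only [Finset.coe_filter, Set.mem_ofPred_eq, mem_pairSet] at hp ⊢
      refine ⟨isPair_mapPair _ hp.1, ?_⟩
      simp only [mapPair, hp.2, ← hGu, Subgroup.coe_inv]
      exact inv_mulVec_cancel _ _
    · intro p _; rw [← mapPair_mul, inv_mul_cancel, mapPair_one]
    · intro p _; rw [← mapPair_mul, mul_inv_cancel, mapPair_one]
  rw [hstep]
  set R := (Finset.univ : Finset F) ×ˢ singSet F m
  have hR : R.card = q * (singSet F m).card := by rw [Finset.card_product, Finset.card_univ]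
  rw [← hR]
  let lift : F × (Fin m ⊕ Fin m → F) → (Fin (m + 1) ⊕ Fin (m + 1) → F) := fun c =>
    Sum.elim (Fin.cons c.1 (c.2 ∘ Sum.inl)) (Fin.cons 0 (c.2 ∘ Sum.inr))
  have hQlift : ∀ c, qPlus (m + 1) F (lift c) = qPlus m F c.2 := fun c => by
    simp [lift, qPlus, CfsgLib.Char2Forms.quadFormPlus_eq, dotProduct, Fin.sum_univ_succ]
  have hba : ∀ v, bform (nondeg_qPlus (F := F) (m + 1)) a v = v (Sum.inr 0) := fun v => by
    simp [bform_qPlus, ha, dotProduct, Pi.single_apply, -bform_apply]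
  symm
  refine Finset.card_bij (fun c _ => (a, lift c)) ?_ ?_ ?_
  · intro c hc
    obtain ⟨hc0, hcQ⟩ := mem_singSet.1 (Finset.mem_product.1 hc).2
    refine Finset.mem_filter.2 ⟨mem_pairSet.2 ⟨haQ, by rw [hQlift]; exact hcQ, by rw [hba]; rfl, ha0,
      fun d hd => hc0 ?_⟩, rfl⟩
    funext i
    rcases i with i | i
    · simpa [lift, ha, Pi.single_apply, Fin.succ_ne_zero] using (congrFun hd (Sum.inl i.succ)).symm
    · simpa [lift, ha, Pi.single_apply] using (congrFun hd (Sum.inr i.succ)).symm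
  · intro c _ c' _ h
    have h' := (Prod.mk.inj h).2
    refine Prod.ext (by simpa [lift] using congrFun h' (Sum.inl 0)) (funext fun i => ?_)
    rcases i with i | i
    · simpa [lift] using congrFun h' (Sum.inl i.succ)
    · simpa [lift] using congrFun h' (Sum.inr i.succ)
  · rintro ⟨p1, v⟩ hp
    obtain ⟨hp, hp1⟩ := Finset.mem_filter.1 hp
    obtain ⟨-, hvQ, hb, -, hne⟩ := mem_pairSet.1 hp
    simp only at hp1 hvQ hb hne
    subst hp1
    rw [hba] at hb
    have hl : lift (v (Sum.inl 0), Sum.elim (fun i => v (Sum.inl i.succ)) fun i => v (Sum.inr i.succ)) = v := by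
      funext i
      rcases i with i | i <;> refine Fin.cases ?_ (fun i => ?_) i <;> simp [lift, hb]
    refine ⟨(v (Sum.inl 0), Sum.elim (fun i => v (Sum.inl i.succ)) fun i => v (Sum.inr i.succ)),
      Finset.mem_product.2 ⟨Finset.mem_univ _, mem_singSet.2 ⟨fun h0 => hne (v (Sum.inl 0)) ?_, ?_⟩⟩, by
      simp [hl]⟩
    · have h1 : ∀ i, v (Sum.inl (Fin.succ i)) = 0 := fun i => congrFun h0 (Sum.inl i)
      have h2 : ∀ i, v (Sum.inr (Fin.succ i)) = 0 := fun i => congrFun h0 (Sum.inr i)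
      funext i
      rcases i with i | i <;> refine Fin.cases ?_ (fun i => ?_) i <;>
        simp [ha, h1, h2, hb, Pi.single_apply, Fin.succ_ne_zero]
    · rw [← hQlift (v (Sum.inl 0), _), hl]; exact hvQ

omit [Field F] [Fintype F] [DecidableEq F] in
theorem dvd_gcd_product {E a b c d : ℕ} (h : E ∣ a * b * c * d) :
    E ∣ Nat.gcd E a * Nat.gcd E b * Nat.gcd E c * Nat.gcd E d := by
  have h1 : Nat.gcd E (a * b * c * d) = E := Nat.gcd_eq_left h
  calc E = Nat.gcd E (a * b * c * d) := h1.symm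
    _ ∣ Nat.gcd E (a * b * c) * Nat.gcd E d := Nat.gcd_mul_right_dvd_mul_gcd ..
    _ ∣ (Nat.gcd E (a * b) * Nat.gcd E c) * Nat.gcd E d :=
        Nat.mul_dvd_mul_right (Nat.gcd_mul_right_dvd_mul_gcd ..) _
    _ ∣ _ := Nat.mul_dvd_mul_right (Nat.mul_dvd_mul_right (Nat.gcd_mul_right_dvd_mul_gcd ..) _) _

omit [Field F] [Fintype F] [DecidableEq F] in
/-- The integrality condition fails for the degree one below the bound. -/
theorem not_dvd_pair_count {n q : ℕ} (hn : 4 ≤ n) (hq : 4 ≤ q) :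
    ¬ (q ^ n + q ^ 2 + q - 1) ∣
      q ^ (2 * n) * ((q ^ n - 1) * (q ^ (n - 1) + 1) * (q ^ (n - 2) + 1) * (q ^ 2 - 1)) := by
  intro h
  set E := q ^ n + q ^ 2 + q - 1 with hE
  have hqn : q ^ n = q ^ 2 * q ^ (n - 2) := by rw [← pow_add]; congr 1; omega
  have hqn' : q ^ n = q * q ^ (n - 1) := by rw [← pow_succ']; congr 1; omega
  have hqn1 : 1 ≤ q ^ n := Nat.one_le_pow _ _ (by omega)
  have hq2 : 1 ≤ q ^ 2 := Nat.one_le_pow _ _ (by omega)
  have hEz : (E : ℤ) = (q : ℤ) ^ n + (q : ℤ) ^ 2 + q - 1 := by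
    rw [hE]; push_cast [show 1 ≤ q ^ n + q ^ 2 + q by omega]; ring
  have hEq : Nat.Coprime E q := by
    rw [Nat.coprime_iff_gcd_eq_one]
    have h1 : (Nat.gcd E q : ℤ) ∣ 1 := by
      have hd1 : (Nat.gcd E q : ℤ) ∣ E := Int.natCast_dvd_natCast.2 (Nat.gcd_dvd_left _ _)
      have hd2 : (Nat.gcd E q : ℤ) ∣ q := Int.natCast_dvd_natCast.2 (Nat.gcd_dvd_right _ _)
      have : (1 : ℤ) = q * ((q : ℤ) ^ (n - 1) + q + 1) - E := by
        rw [hEz]
        have : (q : ℤ) ^ n = q * (q : ℤ) ^ (n - 1) := by exact_mod_cast hqn'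
        rw [this]; ring
      rw [this]
      exact dvd_sub (dvd_mul_of_dvd_left hd2 _) hd1
    exact Nat.dvd_one.1 (by exact_mod_cast h1)
  have h' := (Nat.Coprime.pow_right (2 * n) hEq).dvd_of_dvd_mul_left h
  set g := Nat.gcd E (q ^ 2 - 1) with hg
  have hgE : (g : ℤ) ∣ E := Int.natCast_dvd_natCast.2 (Nat.gcd_dvd_left _ _)
  have hgq : (g : ℤ) ∣ (q : ℤ) ^ 2 - 1 := by
    have : (g : ℤ) ∣ ((q ^ 2 - 1 : ℕ) : ℤ) := Int.natCast_dvd_natCast.2 (Nat.gcd_dvd_right _ _)
    rwa [Nat.cast_sub hq2, Nat.cast_pow, Nat.cast_one] at this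
  -- divisors of `E` and of the four factors
  have key : ∀ {d : ℕ}, (d : ℤ) ∣ E → ∀ {X : ℤ}, (d : ℤ) ∣ X → ∀ (c r : ℤ), (E : ℤ) = c * X + r →
      (d : ℤ) ∣ r := fun {d} hd {X} hX c r he => by
    have : r = E - c * X := by rw [he]; ring
    rw [this]; exact dvd_sub hd (hX.mul_left c)
  have hgd : ∀ {d : ℕ}, d ∣ E → (d : ℤ) ∣ (q : ℤ) ^ 2 - 1 → d ∣ g := fun {d} hd hd' => by
    refine Nat.dvd_gcd hd ?_
    rw [← Int.natCast_dvd_natCast, Nat.cast_sub hq2, Nat.cast_pow, Nat.cast_one]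
    exact hd'
  have hb : Nat.gcd E (q ^ (n - 1) + 1) ∣ g := by
    refine hgd (Nat.gcd_dvd_left _ _) (key (Int.natCast_dvd_natCast.2 (Nat.gcd_dvd_left _ _))
      (Int.natCast_dvd_natCast.2 (Nat.gcd_dvd_right E (q ^ (n - 1) + 1))) q _ ?_)
    rw [hEz, show (q : ℤ) ^ n = q * (q : ℤ) ^ (n - 1) by exact_mod_cast hqn']
    push_cast; ring
  have hc0 : (Nat.gcd E (q ^ (n - 2) + 1) : ℤ) ∣ (q : ℤ) - 1 := by
    refine key (Int.natCast_dvd_natCast.2 (Nat.gcd_dvd_left _ _))
      (Int.natCast_dvd_natCast.2 (Nat.gcd_dvd_right E (q ^ (n - 2) + 1))) ((q : ℤ) ^ 2) _ ?_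
    rw [hEz, show (q : ℤ) ^ n = (q : ℤ) ^ 2 * (q : ℤ) ^ (n - 2) by exact_mod_cast hqn]
    push_cast; ring
  have hc : Nat.gcd E (q ^ (n - 2) + 1) ∣ g := by
    refine hgd (Nat.gcd_dvd_left _ _) (hc0.trans ⟨(q : ℤ) + 1, by ring⟩)
  have ha0 : Nat.gcd E (q ^ n - 1) ∣ q + 1 := by
    have h1 : (Nat.gcd E (q ^ n - 1) : ℤ) ∣ (q : ℤ) * (q + 1) := by
      refine key (Int.natCast_dvd_natCast.2 (Nat.gcd_dvd_left _ _))
        (Int.natCast_dvd_natCast.2 (Nat.gcd_dvd_right E (q ^ n - 1))) 1 _ ?_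
      rw [hEz]; push_cast [hqn1]; ring
    have h2 : Nat.gcd E (q ^ n - 1) ∣ q * (q + 1) := by exact_mod_cast h1
    exact (Nat.Coprime.coprime_dvd_left (Nat.gcd_dvd_left _ _) hEq).dvd_of_dvd_mul_left h2
  have ha : Nat.gcd E (q ^ n - 1) ∣ g := by
    refine hgd (Nat.gcd_dvd_left _ _) ?_
    have : (Nat.gcd E (q ^ n - 1) : ℤ) ∣ (q : ℤ) + 1 := by exact_mod_cast ha0
    exact this.trans ⟨(q : ℤ) - 1, by ring⟩
  -- the gcd with `q^2 - 1`
  have hgsmall : g ∣ 2 ∨ g ∣ q + 1 := by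
    rcases Nat.even_or_odd n with ⟨r, hr⟩ | ⟨r, hr⟩
    · right
      have h1 : (g : ℤ) ∣ (q : ℤ) + 1 := by
        obtain ⟨c, hc'⟩ : (q : ℤ) ^ 2 - 1 ∣ (q : ℤ) ^ n - 1 := by
          rw [hr, ← two_mul, pow_mul]; exact sub_one_dvd_pow_sub_one _ _
        refine key hgE hgq (c + 1) _ ?_
        rw [hEz]; linear_combination hc'
      exact_mod_cast h1
    · left
      have h1 : (g : ℤ) ∣ (q : ℤ) * 2 := by
        obtain ⟨c, hc'⟩ : (q : ℤ) ^ 2 - 1 ∣ ((q : ℤ) ^ 2) ^ r - 1 := sub_one_dvd_pow_sub_one _ _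
        refine key hgE hgq ((q : ℤ) * c + 1) _ ?_
        rw [hEz, hr, pow_succ, pow_mul]; linear_combination (q : ℤ) * hc'
      have h2 : g ∣ q * 2 := by exact_mod_cast h1
      exact (Nat.Coprime.coprime_dvd_left (Nat.gcd_dvd_left _ _) hEq).dvd_of_dvd_mul_left h2
  have hgq1 : g ≤ q + 1 := by
    rcases hgsmall with h1 | h1
    · exact (Nat.le_of_dvd (by norm_num) h1).trans (by omega)
    · exact Nat.le_of_dvd (by omega) h1
  have hc2 : Nat.gcd E (q ^ (n - 2) + 1) ∣ 2 := by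
    rcases hgsmall with h1 | h1
    · exact hc.trans h1
    · have h2 : (Nat.gcd E (q ^ (n - 2) + 1) : ℤ) ∣ (q : ℤ) + 1 := by exact_mod_cast hc.trans h1
      have h3 := dvd_sub h2 hc0
      rw [show (q : ℤ) + 1 - (q - 1) = 2 by ring] at h3
      exact_mod_cast h3
  have hgpos : 0 < g := Nat.gcd_pos_of_pos_right _ (by
    have := Nat.pow_le_pow_left hq 2
    omega)
  have hprod := Nat.le_of_dvd ?_ ((dvd_gcd_product h').trans
    (Nat.mul_dvd_mul (Nat.mul_dvd_mul (Nat.mul_dvd_mul ha hb) hc2) (dvd_refl g)))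
  swap
  · positivity
  have hE4 : q ^ 4 + q ^ 2 + q - 1 ≤ E := by
    have := Nat.pow_le_pow_right (show 1 ≤ q by omega) hn
    omega
  have hbig : g * g * 2 * g ≤ 2 * (q + 1) ^ 3 := by
    calc g * g * 2 * g = 2 * g ^ 3 := by ring
      _ ≤ 2 * (q + 1) ^ 3 := Nat.mul_le_mul_left _ (Nat.pow_le_pow_left hgq1 3)
  obtain ⟨p, rfl⟩ : ∃ p, q = p + 4 := ⟨q - 4, by omega⟩
  have : 2 * (p + 4 + 1) ^ 3 + 1 < (p + 4) ^ 4 + (p + 4) ^ 2 + (p + 4) := by ring_nf; nlinarith
  omega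

end CfsgLib.OrthPlusDeg
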