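import Cfsg.Agent.OrthPlusDeg.RootValue
import Cfsg.Agent.OrthPlusDeg.Count

/-!
The Landazuri-Seitz-Zalesskii bound for `Omega^+_{2n}(q)`: the degree one below the bound is excluded
by the integrality of the sum over the root elements.
-/

set_option autoImplicit false
set_option linter.unusedSectionVars false

noncomputable section

namespace CfsgLib.OrthPlusDeg

open Matrix
open scoped MatrixGroups

variable {F : Type*} [Field F] [Fintype F] [DecidableEq F] {n k : ℕ}

/-- The integrality condition on the degree. -/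
theorem degree_dvd_pairs (R : OmPlus n F →* Matrix (Fin k) (Fin k) ℂ) (hn : 4 ≤ n)
    (hq : 4 ≤ Fintype.card F) (hk0 : k ≠ 0) (hR : ∃ g, R g ≠ 1) (hk : SmallDeg F n k)
    (hschur : ∀ X, (∀ g, X * R g = R g * X) → ∃ c : ℂ, X = c • 1) :
    k ∣ (pairSet F n).card * Fintype.card F ^ (2 * n - 3) := by
  classical
  set q := Fintype.card F with hqdef
  set T := pairSet F n with hT
  set S := ∑ p ∈ T, R (rootOm hn p) with hS
  obtain ⟨c, hc⟩ := hschur S (fun x => by
    have hconj : ∀ p ∈ T, R x * R (rootOm hn p) =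
        R (rootOm hn (mapPair (x : Cfsg.isometryGroup F (qPlus n F)) p)) * R x := by
      intro p hp
      rw [← map_mul, ← map_mul]
      congr 1
      apply Subtype.ext
      rw [Subgroup.coe_mul, Subgroup.coe_mul, ← conj_rootOm hn _ (mem_pairSet.1 hp), inv_mul_cancel_right]
    rw [hS, Finset.mul_sum, Finset.sum_mul, Finset.sum_congr rfl hconj]
    symm
    refine Finset.sum_nbij' (mapPair (x : Cfsg.isometryGroup F (qPlus n F)))
      (mapPair (x : Cfsg.isometryGroup F (qPlus n F))⁻¹) ?_ ?_ ?_ ?_ ?_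
    · intro p hp; exact mem_pairSet.2 (isPair_mapPair _ (mem_pairSet.1 hp))
    · intro p hp; exact mem_pairSet.2 (isPair_mapPair _ (mem_pairSet.1 hp))
    · intro p _; rw [← mapPair_mul, inv_mul_cancel, mapPair_one]
    · intro p _; rw [← mapPair_mul, mul_inv_cancel, mapPair_one]
    · intro p _; rfl)
  have hck : c * k = (T.card : ℂ) * ((k : ℂ) - (q : ℂ) ^ (2 * n - 3)) := by
    have h := congrArg Matrix.trace hc
    rw [hS, Matrix.trace_sum, Finset.sum_congr rfl
      (fun p hp => trace_root R hn hq hR hk (mem_pairSet.1 hp)), Finset.sum_const, nsmul_eq_mul,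
      Matrix.trace_smul, Matrix.trace_one, Fintype.card_fin, smul_eq_mul] at h
    exact h.symm
  have hint : IsIntegral ℤ c := by
    haveI : Nonempty (Fin k) := ⟨⟨0, by omega⟩⟩
    have hx : IsIntegral ℤ (∑ p ∈ T, MonoidAlgebra.single (rootOm hn p) (1 : ℤ)) := IsIntegral.of_finite ℤ _
    have h := hx.map (MonoidAlgebra.lift ℤ (Matrix (Fin k) (Fin k) ℂ) (OmPlus n F) R)
    rw [map_sum] at h
    simp only [MonoidAlgebra.lift_single, one_smul] at h
    rw [← hS, hc, ← Algebra.algebraMap_eq_smul_one] at h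
    exact (isIntegral_algebraMap_iff (algebraMap ℂ (Matrix (Fin k) (Fin k) ℂ)).injective).1 h
  have hrat : c = algebraMap ℚ ℂ ((T.card : ℚ) * ((k : ℚ) - (q : ℚ) ^ (2 * n - 3)) / k) := by
    have hk0' : (k : ℂ) ≠ 0 := Nat.cast_ne_zero.2 hk0
    simp only [map_div₀, map_mul, map_sub, map_pow, map_natCast]
    rw [eq_div_iff hk0', hck]
  obtain ⟨z, hz⟩ := IsIntegrallyClosed.isIntegral_iff.1
    ((isIntegral_algebraMap_iff (algebraMap ℚ ℂ).injective).1 (hrat ▸ hint))
  have hzk : z * (k : ℤ) = (T.card : ℤ) * ((k : ℤ) - (q : ℤ) ^ (2 * n - 3)) := by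
    have hk0' : (k : ℚ) ≠ 0 := Nat.cast_ne_zero.2 hk0
    rw [eq_div_iff hk0', eq_intCast] at hz
    exact_mod_cast hz
  rw [← Int.natCast_dvd_natCast]
  refine ⟨(T.card : ℤ) - z, ?_⟩
  push_cast
  linear_combination hzk

/-- The bound. -/
theorem degree_bound (hn : 4 ≤ n) (hq : 4 ≤ Fintype.card F)
    (ρ : Representation ℂ (OmPlus n F) (Fin k → ℂ)) (hρ : ρ.IsIrreducible) (hk2 : 2 ≤ k) :
    (Fintype.card F ^ n - 1) * (Fintype.card F ^ (n - 1) + Fintype.card F) / (Fintype.card F ^ 2 - 1) ≤ k := by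
  classical
  let R : OmPlus n F →* Matrix (Fin k) (Fin k) ℂ :=
    (LinearMap.toMatrixAlgEquiv' : Module.End ℂ (Fin k → ℂ) ≃ₐ[ℂ] Matrix (Fin k) (Fin k) ℂ).toMonoidHom.comp ρ
  haveI : Nonempty (Fin k) := ⟨⟨0, by omega⟩⟩
  haveI : IsSimpleOrder (Subrepresentation ρ) := hρ
  have hschur : ∀ X, (∀ g, X * R g = R g * X) → ∃ c : ℂ, X = c • 1 := by
    intro X hX
    let L : Module.End ℂ (Fin k → ℂ) := Matrix.toLinAlgEquiv' X
    have hL : ∀ g, L * ρ g = ρ g * L := fun g => by
      have e1 := congrArg (Matrix.toLinAlgEquiv' : Matrix (Fin k) (Fin k) ℂ ≃ₐ[ℂ] _) (hX g)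
      rw [map_mul, map_mul] at e1
      have e2 : (Matrix.toLinAlgEquiv' : Matrix (Fin k) (Fin k) ℂ ≃ₐ[ℂ] _) (R g) = ρ g :=
        Matrix.toLinAlgEquiv'_toMatrixAlgEquiv' _
      rwa [e2] at e1
    obtain ⟨c, hc⟩ := Module.End.exists_eigenvalue L
    have hinv : ∀ g, ∀ x ∈ L.eigenspace c, ρ g x ∈ L.eigenspace c := fun g x hx => by
      rw [Module.End.mem_eigenspace_iff] at hx ⊢
      have := LinearMap.congr_fun (hL g) x
      rw [Module.End.mul_apply, Module.End.mul_apply, hx, map_smul] at this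
      exact this
    rcases eq_bot_or_eq_top (⟨L.eigenspace c, fun g x hx => hinv g x hx⟩ : Subrepresentation ρ) with h | h
    · exact absurd (congrArg Subrepresentation.toSubmodule h) hc
    · refine ⟨c, ?_⟩
      have htop : L.eigenspace c = ⊤ := congrArg Subrepresentation.toSubmodule h
      apply (Matrix.toLinAlgEquiv' : Matrix (Fin k) (Fin k) ℂ ≃ₐ[ℂ] _).injective
      refine LinearMap.ext fun x => ?_
      show L x = _
      have hx : x ∈ L.eigenspace c := htop ▸ Submodule.mem_top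
      rw [Module.End.mem_eigenspace_iff.1 hx, map_smul, map_one]
      rfl
  have hR : ∃ g, R g ≠ 1 := by
    by_contra hc
    push Not at hc
    obtain ⟨c, hc'⟩ := hschur (Matrix.single ⟨0, by omega⟩ ⟨1, by omega⟩ 1)
      (fun g => by rw [hc g, mul_one, one_mul])
    have := congrFun (congrFun hc' ⟨0, by omega⟩) ⟨1, by omega⟩
    simp [Matrix.one_apply] at this
  set q := Fintype.card F with hqdef
  set d := q ^ 2 - 1 with hd
  set Z := (q ^ n - 1) * (q ^ (n - 1) + q) with hZ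
  have hd0 : 0 < d := by
    have : 16 ≤ q ^ 2 := by nlinarith
    omega
  by_contra hlt
  push Not at hlt
  have hsmall : SmallDeg F n k :=
    (Nat.mul_le_mul_right d (Nat.succ_le_of_lt hlt)).trans (Nat.div_mul_le_self Z d)
  have heq : (k + 1) * d = Z := le_antisymm hsmall (degree_pred_bound R hn hq hR hsmall)
  have hdvd := degree_dvd_pairs R hn hq (by omega) hR hsmall hschur
  rw [card_pairSet (by omega)] at hdvd
  -- the degree times `q^2 - 1` is `(q^(n-1) - 1)(q^n + q^2 + q - 1)`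
  have hu0 : 1 ≤ q ^ (n - 1) := Nat.one_le_pow _ _ (by omega)
  have hn0 : 1 ≤ q ^ n := Nat.one_le_pow _ _ (by omega)
  have hq20 : 1 ≤ q ^ 2 := Nat.one_le_pow _ _ (by omega)
  have hpw : q ^ n = q * q ^ (n - 1) := by rw [← pow_succ']; congr 1; omega
  have hkd : k * d = (q ^ (n - 1) - 1) * (q ^ n + q ^ 2 + q - 1) := by
    have hE : 1 ≤ q ^ n + q ^ 2 + q := by omega
    rw [hd, hZ] at heq
    rw [hd]
    zify [hu0, hn0, hq20, hE] at heq ⊢
    have hpw' : (q : ℤ) ^ n = q * (q : ℤ) ^ (n - 1) := by exact_mod_cast hpw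
    rw [hpw'] at heq ⊢
    linear_combination heq
  have h1 : (q ^ (n - 1) - 1) * (q ^ n + q ^ 2 + q - 1) ∣
      (q ^ (n - 1) - 1) * (q ^ (2 * n) * ((q ^ n - 1) * (q ^ (n - 1) + 1) * (q ^ (n - 2) + 1) * (q ^ 2 - 1))) := by
    rw [← hkd]
    have e : (q ^ n - 1) * (q ^ (n - 1) + 1) * (q * ((q ^ (n - 1) - 1) * (q ^ (n - 2) + 1))) *
        q ^ (2 * n - 3) * d =
        (q ^ (n - 1) - 1) *
          (q ^ (2 * n - 2) * ((q ^ n - 1) * (q ^ (n - 1) + 1) * (q ^ (n - 2) + 1) * (q ^ 2 - 1))) := by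
      rw [show 2 * n - 2 = 2 * n - 3 + 1 by omega, pow_succ, hd]
      ring
    refine (Nat.mul_dvd_mul_right hdvd d).trans ?_
    rw [e]
    exact Nat.mul_dvd_mul_left _ (Nat.mul_dvd_mul_right (pow_dvd_pow q (by omega)) _)
  have hu2 : 0 < q ^ (n - 1) - 1 := by
    have : q ≤ q ^ (n - 1) := Nat.le_self_pow (by omega) q
    omega
  exact not_dvd_pair_count hn hq (Nat.dvd_of_mul_dvd_mul_left hu2 h1)

end CfsgLib.OrthPlusDeg
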